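import Mathlib.GroupTheory.Sylow
import Mathlib.GroupTheory.Complement

/-!
# A criterion for `p`-complements in a quotient
-/

set_option autoImplicit false

namespace Cfsg.Agent.H76

variable {G : Type*} [Group G]

theorem relIndex_eq_of_mul {S T L : Subgroup G} (hTL : T ≤ L)
    (h : ∀ l ∈ L, ∃ t ∈ T, ∃ s ∈ S, l = t * s) : S.relIndex T = S.relIndex L := by
  refine Nat.card_congr (Equiv.ofBijective (Subgroup.quotientSubgroupOfEmbeddingOfLE S hTL)
    ⟨(Subgroup.quotientSubgroupOfEmbeddingOfLE S hTL).injective, ?_⟩)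
  intro q
  induction q using QuotientGroup.induction_on with
  | H l =>
    obtain ⟨t, ht, s, hs, hl⟩ := h l l.2
    refine ⟨QuotientGroup.mk ⟨t, ht⟩, ?_⟩
    change Subgroup.quotientSubgroupOfEmbeddingOfLE S hTL (QuotientGroup.mk ⟨t, ht⟩) = _
    rw [Subgroup.quotientSubgroupOfEmbeddingOfLE_apply_mk, QuotientGroup.eq]
    rw [Subgroup.mem_subgroupOf]
    have : (((Subgroup.inclusion hTL) ⟨t, ht⟩)⁻¹ * l : L) = ⟨t⁻¹ * l, L.mul_mem
        (L.inv_mem (hTL ht)) l.2⟩ := rfl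
    rw [this]
    change t⁻¹ * (l : G) ∈ S
    rw [hl, inv_mul_cancel_left]
    exact hs

/-- A `p`-complement in `G / K`. -/
theorem exists_pcompl [Finite G] {p : ℕ} [hp : Fact p.Prime] {K S T L : Subgroup G} [K.Normal]
    (hSL : S ≤ L) (hTL : T ≤ L) (hQT : S ⊓ K ≤ T) (hTS : T ⊓ S ≤ K)
    (hL : ∀ l ∈ L, ∃ t ∈ T, ∃ s ∈ S, l = t * s) (hLK : ∀ g : G, ∃ l ∈ L, ∃ k ∈ K, g = l * k)
    (hS : ¬ p ∣ S.index) (hSp : ∃ k, K.relIndex S = p ^ k) :
    ¬ p ∣ Nat.card (T.map (QuotientGroup.mk' K)) ∧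
      ∃ j, (T.map (QuotientGroup.mk' K)).index = p ^ j := by
  constructor
  · intro hdvd
    apply hS
    rw [← Subgroup.relIndex_ker, QuotientGroup.ker_mk'] at hdvd
    have h1 : K.relIndex T ∣ (S ⊓ K).relIndex T := Subgroup.relIndex_dvd_of_le_left T inf_le_right
    have h2 : (S ⊓ K).relIndex T = S.relIndex T := by
      rw [← Subgroup.inf_relIndex_right S T]
      congr 1
      apply le_antisymm
      · exact le_inf inf_le_left hQT
      · exact le_inf inf_le_left ((le_inf inf_le_right inf_le_left).trans hTS)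
    have h3 : S.relIndex T = S.relIndex L := relIndex_eq_of_mul hTL hL
    have h4 : S.relIndex L ∣ S.index := ⟨_, (Subgroup.relIndex_mul_index hSL).symm⟩
    exact hdvd.trans (h1.trans (h2 ▸ h3 ▸ h4))
  · obtain ⟨k, hk⟩ := hSp
    have h1 : (T.map (QuotientGroup.mk' K)).relIndex (S.map (QuotientGroup.mk' K)) =
        (T.map (QuotientGroup.mk' K)).relIndex ⊤ := by
      refine relIndex_eq_of_mul le_top ?_
      intro x _
      obtain ⟨g, hg⟩ := QuotientGroup.mk'_surjective K x⁻¹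
      obtain ⟨l, hl, m, hm, rfl⟩ := hLK g
      obtain ⟨t, ht, s, hs, rfl⟩ := hL l hl
      refine ⟨(QuotientGroup.mk' K s)⁻¹, Subgroup.inv_mem _ ⟨s, hs, rfl⟩,
        (QuotientGroup.mk' K t)⁻¹, Subgroup.inv_mem _ ⟨t, ht, rfl⟩, ?_⟩
      have h2 : QuotientGroup.mk' K m = 1 := by
        rw [QuotientGroup.mk'_apply, QuotientGroup.eq_one_iff]; exact hm
      rw [map_mul, map_mul, h2, mul_one] at hg
      rw [← mul_inv_rev, hg, inv_inv]
    rw [Subgroup.relIndex_top_right] at h1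
    have h2 : (T.map (QuotientGroup.mk' K)).relIndex (S.map (QuotientGroup.mk' K)) ∣
        Nat.card (S.map (QuotientGroup.mk' K)) := Subgroup.relIndex_dvd_card _ _
    rw [h1, ← Subgroup.relIndex_ker, QuotientGroup.ker_mk', hk] at h2
    obtain ⟨j, -, hj⟩ := (Nat.dvd_prime_pow hp.out).1 h2
    exact ⟨j, hj⟩

/-- The preimage of a Sylow subgroup of `G / Z`. -/
theorem sylow_preimage [Finite G] {p : ℕ} [hp : Fact p.Prime] (Z K : Subgroup G) [Z.Normal]
    [K.Normal] (hZK : Z ≤ K) : ∃ S : Subgroup G, Z ≤ S ∧ ¬ p ∣ S.index ∧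
      (∃ k, Z.relIndex S = p ^ k) ∧ (∃ k, K.relIndex S = p ^ k) ∧
      ¬ p ∣ (S ⊓ K).relIndex K ∧
      ∀ g : G, ∃ l ∈ Subgroup.normalizer ((S ⊓ K : Subgroup G) : Set G), ∃ k ∈ K, g = l * k := by
  obtain ⟨P⟩ : Nonempty (Sylow p (G ⧸ Z)) := inferInstance
  set π := QuotientGroup.mk' Z with hπ
  have hsurj : Function.Surjective π := QuotientGroup.mk'_surjective Z
  set S := (P : Subgroup (G ⧸ Z)).comap π with hS
  have hZS : Z ≤ S := by
    intro z hz
    rw [hS, Subgroup.mem_comap]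
    have : π z = 1 := by rw [hπ, QuotientGroup.mk'_apply, QuotientGroup.eq_one_iff]; exact hz
    rw [this]; exact one_mem _
  have hSmap : S.map π = P := Subgroup.map_comap_eq_self_of_surjective hsurj _
  have hidx : S.index = (P : Subgroup (G ⧸ Z)).index := Subgroup.index_comap_of_surjective _ hsurj
  have hZrel : ∃ k, Z.relIndex S = p ^ k := by
    obtain ⟨k, hk⟩ := IsPGroup.iff_card.1 P.2
    refine ⟨k, ?_⟩
    have h1 : Z.relIndex S = Nat.card (S.map π) := by
      rw [← Subgroup.relIndex_ker, hπ, QuotientGroup.ker_mk']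
    rw [h1, hSmap]; exact hk
  have hKbar : (K.map π).comap π = K := by
    rw [Subgroup.comap_map_eq, hπ, QuotientGroup.ker_mk', sup_eq_left]; exact hZK
  have hPi : ¬ p ∣ (P : Subgroup (G ⧸ Z)).index := P.not_dvd_index
  refine ⟨S, hZS, by rw [hidx]; exact hPi, hZrel, ?_, ?_, ?_⟩
  · obtain ⟨k, hk⟩ := hZrel
    have h1 : K.relIndex S ∣ Z.relIndex S := Subgroup.relIndex_dvd_of_le_left S hZK
    rw [hk] at h1
    obtain ⟨j, -, hj⟩ := (Nat.dvd_prime_pow hp.out).1 h1
    exact ⟨j, hj⟩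
  · -- `|K : S ∩ K| = |K S : S|` divides the index of `S`
    intro hdvd
    rw [Subgroup.inf_relIndex_right] at hdvd
    apply hPi
    rw [← hidx]
    have h1 : S.relIndex K = S.relIndex (K ⊔ S) := by
      refine relIndex_eq_of_mul le_sup_left ?_
      intro l hl
      obtain ⟨k, hk, s, hs, h⟩ := Subgroup.mem_sup_of_normal_left.1 hl
      exact ⟨k, hk, s, hs, h.symm⟩
    rw [h1] at hdvd
    exact hdvd.trans ⟨_, (Subgroup.relIndex_mul_index (le_sup_right : S ≤ K ⊔ S)).symm⟩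
  · -- Frattini
    have hKn : (K.map π).Normal := (inferInstance : K.Normal).map π hsurj
    have h0 : ((P : Subgroup (G ⧸ Z)) ⊓ K.map π).comap π = S ⊓ K := by
      rw [Subgroup.comap_inf, hKbar]
    have hPK : ¬ p ∣ (((P : Subgroup (G ⧸ Z)) ⊓ K.map π).subgroupOf (K.map π)).index := by
      intro hdvd
      change p ∣ ((P : Subgroup (G ⧸ Z)) ⊓ K.map π).relIndex (K.map π) at hdvd
      rw [Subgroup.inf_relIndex_right] at hdvd
      apply hPi
      have h1 : (P : Subgroup (G ⧸ Z)).relIndex (K.map π) =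
          (P : Subgroup (G ⧸ Z)).relIndex (K.map π ⊔ P) := by
        refine relIndex_eq_of_mul le_sup_left ?_
        intro l hl
        obtain ⟨k, hk, s, hs, h⟩ := Subgroup.mem_sup_of_normal_left.1 hl
        exact ⟨k, hk, s, hs, h.symm⟩
      rw [h1] at hdvd
      exact hdvd.trans ⟨_, (Subgroup.relIndex_mul_index
        (le_sup_right : (P : Subgroup (G ⧸ Z)) ≤ K.map π ⊔ P)).symm⟩
    have hPKp : IsPGroup p (((P : Subgroup (G ⧸ Z)) ⊓ K.map π).subgroupOf (K.map π)) :=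
      (P.2.to_le inf_le_left).comap_of_injective _ (K.map π).subtype_injective
    have hfr := Sylow.normalizer_sup_eq_top (hPKp.toSylow hPK)
    rw [IsPGroup.toSylow_coe, Subgroup.subgroupOf_map_subtype, inf_assoc, inf_idem] at hfr
    intro g
    have h2 : π g ∈ Subgroup.normalizer (((P : Subgroup (G ⧸ Z)) ⊓ K.map π : Subgroup (G ⧸ Z)) :
        Set (G ⧸ Z)) ⊔ K.map π := by rw [hfr]; exact Subgroup.mem_top _
    obtain ⟨l', hl', k', hk', h3⟩ := Subgroup.mem_sup_of_normal_right.1 h2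
    obtain ⟨k, hk, rfl⟩ := hk'
    refine ⟨g * k⁻¹, ?_, k, hk, by group⟩
    rw [← h0, ← Subgroup.comap_normalizer_eq_of_surjective _ hsurj, Subgroup.mem_comap, map_mul,
      map_inv, ← h3, mul_inv_cancel_right]
    exact hl'

end Cfsg.Agent.H76
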