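import Cfsg.Agent.H76.FullyRam
import Cfsg.Agent.H76.PCompl

/-!
# Fully ramified characters and `p`-complements
-/

set_option autoImplicit false
set_option linter.unusedSectionVars false

namespace Cfsg.Agent.H76

open scoped ComplexConjugate
open Cfsg Cfsg.Agent.CharBase Cfsg.Agent.Char

section stab

variable {G : Type*} [Group G]

/-- The stabilizer of a function on `Q` in the normalizer of `Q`. -/
def stabF (Q : Subgroup G) (φ : Q → ℂ) : Subgroup G where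
  carrier := {g | g ∈ Subgroup.normalizer (Q : Set G) ∧ ∀ (q : G) (hq : q ∈ Q)
    (hq' : g * q * g⁻¹ ∈ Q), φ ⟨g * q * g⁻¹, hq'⟩ = φ ⟨q, hq⟩}
  one_mem' := by
    refine ⟨one_mem _, fun q hq hq' => ?_⟩
    congr 1
    apply Subtype.ext
    simp
  mul_mem' := by
    rintro g h ⟨hg, hg'⟩ ⟨hh, hh'⟩
    refine ⟨mul_mem hg hh, fun q hq hq' => ?_⟩
    have h1 : h * q * h⁻¹ ∈ Q := (Subgroup.mem_normalizer_iff.1 hh q).1 hq
    have h2 : g * (h * q * h⁻¹) * g⁻¹ ∈ Q := (Subgroup.mem_normalizer_iff.1 hg _).1 h1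
    rw [← hh' q hq h1, ← hg' _ h1 h2]
    congr 1
    apply Subtype.ext
    simp only
    group
  inv_mem' := by
    rintro g ⟨hg, hg'⟩
    refine ⟨inv_mem hg, fun q hq hq' => ?_⟩
    have h1 : g * (g⁻¹ * q * g⁻¹⁻¹) * g⁻¹ = q := by group
    have h2 := hg' (g⁻¹ * q * g⁻¹⁻¹) hq' (by rw [h1]; exact hq)
    rw [← h2]
    congr 1
    apply Subtype.ext
    exact h1

theorem mem_stabF {Q : Subgroup G} {φ : Q → ℂ} {g : G} : g ∈ stabF Q φ ↔
    g ∈ Subgroup.normalizer (Q : Set G) ∧ ∀ (q : G) (hq : q ∈ Q)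
    (hq' : g * q * g⁻¹ ∈ Q), φ ⟨g * q * g⁻¹, hq'⟩ = φ ⟨q, hq⟩ := Iff.rfl

end stab

section main

variable {G : Type*} [Group G] [Fintype G] {Z K : Subgroup G} [Fintype Z] [hZn : Z.Normal]
  [hKn : K.Normal] {χ : G → ℂ} {θ : Z → ℂ} {e : ℕ} {p : ℕ} [hp : Fact p.Prime]

theorem fr_inv (hχ : IsIrrCharacter G χ) (hr : ∀ z : Z, χ z = (e : ℂ) * θ z) (g z : G)
    (hz : z ∈ Z) (hz' : g * z * g⁻¹ ∈ Z) : θ ⟨g * z * g⁻¹, hz'⟩ = θ ⟨z, hz⟩ := by
  have he0 : (e : ℂ) ≠ 0 := by exact_mod_cast fr_e_pos hχ hr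
  apply mul_left_cancel₀ he0
  rw [← hr, ← hr]
  exact isClassFunction_of_isCharacter (isCharacter_of_isIrr hχ) z g

/-- Any two characters of `S ∩ K` over `θ` are conjugate in `S`; and the numerology. -/
theorem fr_data (hχ : IsIrrCharacter G χ) (hθ : IsIrrCharacter Z θ)
    (hr : ∀ z : Z, χ z = (e : ℂ) * θ z) (he : e ^ 2 = Z.index) (_hZK : Z ≤ K)
    {S : Subgroup G} (hZS : Z ≤ S) (hS : ¬ p ∣ S.index) (hSZ : ∃ k, Z.relIndex S = p ^ k) :
    ∃ (η : S → ℂ) (f : ℕ), IsIrrCharacter S η ∧ f ^ 2 = Z.relIndex S ∧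
      ∀ z : Z, η ⟨z, hZS z.2⟩ = (f : ℂ) * θ z := by
  classical
  have : Fintype S := Fintype.ofFinite _
  obtain ⟨η, hη, hne⟩ := exists_constituent_restrict S (isCharacter_of_isIrr hχ)
    (irr_one_ne_zero hχ)
  obtain ⟨f, -, hf⟩ := restrict_of_constituent hχ hθ hr hZS hη hne
  exact ⟨η, f, hη, fr_sylow hχ hθ hr he hZS hS hSZ hη hf, hf⟩

theorem fr_conj (hθ : IsIrrCharacter Z θ) (hZK : Z ≤ K)
    {S : Subgroup G} (hZS : Z ≤ S) {η : S → ℂ} {f : ℕ} (hη : IsIrrCharacter S η)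
    (hf : f ^ 2 = Z.relIndex S) (hr : ∀ z : Z, η ⟨z, hZS z.2⟩ = (f : ℂ) * θ z)
    {φ φ' : (S ⊓ K : Subgroup G) → ℂ} (hφ : IsIrrCharacter _ φ) (hφ' : IsIrrCharacter _ φ')
    {a a' : ℕ} (ha : ∀ z : Z, φ ⟨z, ⟨hZS z.2, hZK z.2⟩⟩ = (a : ℂ) * θ z)
    (ha' : ∀ z : Z, φ' ⟨z, ⟨hZS z.2, hZK z.2⟩⟩ = (a' : ℂ) * θ z) :
    ∃ s ∈ S, ∀ (q : G) (hq : q ∈ S ⊓ K) (hq' : s * q * s⁻¹ ∈ S ⊓ K),
      φ ⟨s * q * s⁻¹, hq'⟩ = φ' ⟨q, hq⟩ := by
  classical
  have : Fintype S := Fintype.ofFinite _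
  have : Fintype (Z.subgroupOf S) := Fintype.ofFinite _
  have : Fintype ((S ⊓ K).subgroupOf S) := Fintype.ofFinite _
  have hQn : ((S ⊓ K).subgroupOf S).Normal := by
    rw [Subgroup.inf_subgroupOf_left]
    infer_instance
  have hle : S ⊓ K ≤ S := inf_le_left
  have hZQ : Z.subgroupOf S ≤ (S ⊓ K).subgroupOf S :=
    Subgroup.comap_mono (le_inf hZS hZK)
  obtain ⟨s, hs⟩ := mid_conj (S := S) (Z := Z.subgroupOf S) (Q := (S ⊓ K).subgroupOf S)
    (θ := sc S θ) hη (sc_irr hZS hθ) (fun z => hr ⟨((z : S) : G), z.2⟩) hf hZQ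
    (sc_irr hle hφ) (sc_irr hle hφ')
    (fun z => ha ⟨((z : S) : G), z.2⟩) (fun z => ha' ⟨((z : S) : G), z.2⟩)
  refine ⟨s, s.2, fun q hq hq' => ?_⟩
  have h1 := congrFun hs ⟨⟨q, hq.1⟩, hq⟩
  exact h1

/-- **`p`-complements** in `G / K`. -/
theorem fr_pcompl (hχ : IsIrrCharacter G χ) (hθ : IsIrrCharacter Z θ)
    (hr : ∀ z : Z, χ z = (e : ℂ) * θ z) (he : e ^ 2 = Z.index) (hZK : Z ≤ K)
    {S : Subgroup G} (hZS : Z ≤ S) (hS : ¬ p ∣ S.index) (hSZ : ∃ k, Z.relIndex S = p ^ k)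
    (hSK : ∃ k, K.relIndex S = p ^ k)
    (hfr : ∀ g : G, ∃ l ∈ Subgroup.normalizer ((S ⊓ K : Subgroup G) : Set G), ∃ k ∈ K, g = l * k)
    {φ : (S ⊓ K : Subgroup G) → ℂ} (hφ : IsIrrCharacter _ φ)
    {a : ℕ} (ha : ∀ z : Z, φ ⟨z, ⟨hZS z.2, hZK z.2⟩⟩ = (a : ℂ) * θ z)
    (hst : stabF (S ⊓ K) φ ⊓ S ≤ K) :
    ∃ M : Subgroup (G ⧸ K), ¬ p ∣ Nat.card M ∧ ∃ j, M.index = p ^ j := by
  classical
  obtain ⟨η, f, hη, hf, hηr⟩ := fr_data hχ hθ hr he hZK hZS hS hSZ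
  have hφcl := isClassFunction_of_isCharacter (isCharacter_of_isIrr hφ)
  refine ⟨(stabF (S ⊓ K) φ).map (QuotientGroup.mk' K), ?_⟩
  have hSL : S ≤ Subgroup.normalizer ((S ⊓ K : Subgroup G) : Set G) := by
    intro s hs
    rw [Subgroup.mem_normalizer_iff]
    intro q
    rw [Subgroup.mem_inf, Subgroup.mem_inf]
    constructor
    · rintro ⟨h1, h2⟩
      exact ⟨S.mul_mem (S.mul_mem hs h1) (S.inv_mem hs), hKn.conj_mem q h2 s⟩
    · rintro ⟨h1, h2⟩
      have h3 : q = s⁻¹ * (s * q * s⁻¹) * s⁻¹⁻¹ := by group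
      rw [h3]
      exact ⟨S.mul_mem (S.mul_mem (S.inv_mem hs) h1) (S.inv_mem (S.inv_mem hs)),
        hKn.conj_mem _ h2 s⁻¹⟩
  refine exists_pcompl (L := Subgroup.normalizer ((S ⊓ K : Subgroup G) : Set G)) (S := S) hSL (fun g hg => hg.1)
    ?_ hst ?_ hfr hS hSK
  · -- `Q ≤ stab`
    intro q hq
    refine ⟨Subgroup.le_normalizer hq, fun x hx hx' => ?_⟩
    have h1 := hφcl ⟨x, hx⟩ ⟨q, hq⟩
    rw [← h1]
    rfl
  · -- transitivity
    intro l hl
    have hl' := Subgroup.mem_normalizer_iff.1 hl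
    -- the conjugate of `φ`
    let e0 : (S ⊓ K : Subgroup G) ≃* (S ⊓ K : Subgroup G) :=
      { toFun := fun q => ⟨l * q * l⁻¹, (hl' q).1 q.2⟩
        invFun := fun q => ⟨l⁻¹ * q * l, by
          have h1 := (hl' (l⁻¹ * (q : G) * l)).2
          apply h1
          have : l * (l⁻¹ * (q : G) * l) * l⁻¹ = q := by group
          rw [this]; exact q.2⟩
        left_inv := fun q => Subtype.ext (by simp only; group)
        right_inv := fun q => Subtype.ext (by simp only; group)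
        map_mul' := fun q q' => Subtype.ext (by simp only [Subgroup.coe_mul]; group) }
    have hφ' : IsIrrCharacter (S ⊓ K : Subgroup G) (φ ∘ e0) :=
      isIrrCharacter_comp_surjective hφ e0.toMonoidHom e0.surjective
    have ha' : ∀ z : Z, (φ ∘ e0) ⟨z, ⟨hZS z.2, hZK z.2⟩⟩ = (a : ℂ) * θ z := by
      intro z
      have hz' : l * (z : G) * l⁻¹ ∈ Z := hZn.conj_mem z z.2 l
      have h1 := ha ⟨l * (z : G) * l⁻¹, hz'⟩
      have h2 := fr_inv hχ hr l z z.2 hz'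
      rw [h2] at h1
      exact h1
    obtain ⟨s, hs, hs'⟩ := fr_conj hθ hZK hZS hη hf hηr hφ hφ' ha ha'
    refine ⟨l * s⁻¹, ⟨mul_mem hl (inv_mem (hSL hs)), fun q hq hq' => ?_⟩, s, hs, by group⟩
    have hq1 : s⁻¹ * q * s ∈ S ⊓ K := by
      have h1 := (Subgroup.mem_normalizer_iff.1 (hSL (S.inv_mem hs)) q).1 hq
      rwa [inv_inv] at h1
    have hq2 : s * (s⁻¹ * q * s) * s⁻¹ = q := by group
    have h1 := hs' (s⁻¹ * q * s) hq1 (by rw [hq2]; exact hq)
    have h2 : (φ ∘ e0) ⟨s⁻¹ * q * s, hq1⟩ = φ ⟨l * s⁻¹ * q * (l * s⁻¹)⁻¹, hq'⟩ := by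
      change φ _ = φ _
      congr 1
      apply Subtype.ext
      change l * (s⁻¹ * q * s) * l⁻¹ = l * s⁻¹ * q * (l * s⁻¹)⁻¹
      group
    rw [← h2, ← h1]
    congr 1
    exact Subtype.ext hq2

end main

section more

variable {G : Type*} [Group G]

theorem isCyclic_quotient_of_map {K S : Subgroup G} [K.Normal]
    (hcyc : IsCyclic (S.map (QuotientGroup.mk' K))) (T : Subgroup S)
    [(((S ⊓ K).subgroupOf S).subgroupOf T).Normal] :
    IsCyclic (T ⧸ ((S ⊓ K).subgroupOf S).subgroupOf T) := by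
  let f : T →* G ⧸ K := (QuotientGroup.mk' K).comp (S.subtype.comp T.subtype)
  have hker : f.ker = ((S ⊓ K).subgroupOf S).subgroupOf T := by
    ext t
    rw [MonoidHom.mem_ker, Subgroup.mem_subgroupOf, Subgroup.mem_subgroupOf, Subgroup.mem_inf]
    change QuotientGroup.mk' K ((t : S) : G) = 1 ↔ _
    rw [QuotientGroup.mk'_apply, QuotientGroup.eq_one_iff]
    constructor
    · intro h; exact ⟨(t : S).2, h⟩
    · intro h; exact h.2
  have hle : f.range ≤ S.map (QuotientGroup.mk' K) := by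
    rintro _ ⟨t, rfl⟩
    exact ⟨(t : S), (t : S).2, rfl⟩
  have h1 : IsCyclic f.range := isCyclic_of_injective (Subgroup.inclusion hle)
    (Subgroup.inclusion_injective hle)
  have h2 : IsCyclic (T ⧸ f.ker) := isCyclic_of_surjective
    (QuotientGroup.quotientKerEquivRange f).symm (QuotientGroup.quotientKerEquivRange f).symm.surjective
  exact isCyclic_of_surjective (QuotientGroup.quotientMulEquivOfEq hker)
    (QuotientGroup.quotientMulEquivOfEq hker).surjective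

theorem stab_of_inertia {K S : Subgroup G} [K.Normal] {φ : (S ⊓ K : Subgroup G) → ℂ}
    [((S ⊓ K).subgroupOf S).Normal]
    (h : inertia ((S ⊓ K).subgroupOf S) (sc S φ) = (S ⊓ K).subgroupOf S) :
    stabF (S ⊓ K) φ ⊓ S ≤ K := by
  rintro g ⟨hg, hgS⟩
  have h1 : (⟨g, hgS⟩ : S) ∈ inertia ((S ⊓ K).subgroupOf S) (sc S φ) := by
    rw [mem_inertia]
    funext q
    exact hg.2 _ q.2 _
  rw [h] at h1
  exact h1.2

end more

section final

variable {G : Type*} [Group G] [Fintype G] {Z K : Subgroup G} [Fintype Z] [hZn : Z.Normal]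
  [hKn : K.Normal] {χ : G → ℂ} {θ : Z → ℂ} {e : ℕ} {p : ℕ} [hp : Fact p.Prime]

/-- Cyclic Sylow subgroups in `G / K` have complements. -/
theorem fr_cyclic_compl (hχ : IsIrrCharacter G χ) (hθ : IsIrrCharacter Z θ)
    (hr : ∀ z : Z, χ z = (e : ℂ) * θ z) (he : e ^ 2 = Z.index) (hZK : Z ≤ K)
    (P : Sylow p (G ⧸ K)) (hP : IsCyclic P) :
    ∃ M : Subgroup (G ⧸ K), ¬ p ∣ Nat.card M ∧ ∃ j, M.index = p ^ j := by
  classical
  obtain ⟨S, hZS, hS, hSZ, hSK, -, hfr⟩ := sylow_preimage (p := p) Z K hZK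
  have : Fintype S := Fintype.ofFinite _
  have : Fintype (S ⊓ K : Subgroup G) := Fintype.ofFinite _
  have : Fintype (Z.subgroupOf S) := Fintype.ofFinite _
  have : Fintype ((S ⊓ K).subgroupOf S) := Fintype.ofFinite _
  have hQn : ((S ⊓ K).subgroupOf S).Normal := by
    rw [Subgroup.inf_subgroupOf_left]
    infer_instance
  obtain ⟨η, f, hη, hf, hηr⟩ := fr_data hχ hθ hr he hZK hZS hS hSZ
  -- a character of `S ∩ K` over `θ`
  obtain ⟨φ, hφ, hne⟩ := exists_constituent_restrict (S ⊓ K) (isCharacter_of_isIrr hχ)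
    (irr_one_ne_zero hχ)
  obtain ⟨a, -, ha⟩ := restrict_of_constituent hχ hθ hr (le_inf hZS hZK) hφ hne
  refine fr_pcompl hχ hθ hr he hZK hZS hS hSZ hSK hfr hφ ha (stab_of_inertia ?_)
  have hle : S ⊓ K ≤ S := inf_le_left
  have hZQ : Z.subgroupOf S ≤ (S ⊓ K).subgroupOf S :=
    Subgroup.comap_mono (le_inf hZS hZK)
  refine mid_cyclic (S := S) (Z := Z.subgroupOf S) (Q := (S ⊓ K).subgroupOf S)
    (θ := sc S θ) hη (sc_irr hZS hθ) (fun z => hηr ⟨((z : S) : G), z.2⟩) hf hZQ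
    (sc_irr hle hφ) (fun z => ha ⟨((z : S) : G), z.2⟩) ?_
  refine isCyclic_quotient_of_map ?_ _
  -- `S K / K` is cyclic
  obtain ⟨k, hk⟩ := hSK
  have hpS : IsPGroup p (S.map (QuotientGroup.mk' K)) := by
    refine IsPGroup.of_card (n := k) ?_
    rw [← Subgroup.relIndex_ker, QuotientGroup.ker_mk', hk]
  obtain ⟨P', hP'⟩ := hpS.exists_le_sylow
  have h1 : IsCyclic P' := isCyclic_of_surjective (Sylow.equiv P P') (Sylow.equiv P P').surjective
  exact isCyclic_of_injective (Subgroup.inclusion hP') (Subgroup.inclusion_injective hP')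

end final

section overSec

variable {G : Type*} [Group G] [Fintype G] {Z : Subgroup G} [Fintype Z] {θ : Z → ℂ}

/-- Constituents of a character whose restriction to `Z` is a multiple of `θ`. -/
theorem over_of_constituent (hθ : IsIrrCharacter Z θ) {S : Subgroup G} [Fintype S] (hZS : Z ≤ S)
    {ψ : S → ℂ} (hψ : IsCharacter S ψ) {c : ℕ} (hc : ∀ z : Z, ψ ⟨z, hZS z.2⟩ = (c : ℂ) * θ z)
    {η : S → ℂ} (hη : IsIrrCharacter S η) (h : classInner ψ η ≠ 0) :
    ∃ f : ℕ, f ≠ 0 ∧ ∀ z : Z, η ⟨z, hZS z.2⟩ = (f : ℂ) * θ z := by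
  classical
  have : Fintype (IrrCharacter S) := Fintype.ofFinite _
  have : Fintype (IrrCharacter Z) := Fintype.ofFinite _
  obtain ⟨m, hm, hsum⟩ := exists_mult_of_isCharacter hψ
  have hηZ : IsCharacter Z (fun z : Z => η ⟨z, hZS z.2⟩) :=
    isCharacter_comp (isCharacter_of_isIrr hη) (Subgroup.inclusion hZS)
  obtain ⟨a, ha, hasum⟩ := exists_mult_of_isCharacter hηZ
  have hm0 : m ⟨η, hη⟩ ≠ 0 := by
    intro h0
    apply h
    have := hm ⟨η, hη⟩
    rw [h0, Nat.cast_zero] at this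
    exact this
  have hzero : ∀ ξ' : IrrCharacter Z, ξ' ≠ ⟨θ, hθ⟩ → a ξ' = 0 := by
    intro ξ' hξ'
    have h1 : classInner (fun z : Z => ψ ⟨z, hZS z.2⟩) (ξ' : Z → ℂ) = 0 := by
      have : (fun z : Z => ψ ⟨z, hZS z.2⟩) = (c : ℂ) • θ := by funext z; rw [hc]; rfl
      rw [this, classInner_smul_left, classInner_irr_of_ne (χ := ⟨θ, hθ⟩) hξ'.symm, mul_zero]
    have h2 : (fun z : Z => ψ ⟨z, hZS z.2⟩) = ∑ ξ : IrrCharacter S, (m ξ : ℂ) •
        (fun z : Z => (ξ : S → ℂ) ⟨z, hZS z.2⟩) := by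
      funext z
      have := congrFun hsum ⟨z, hZS z.2⟩
      rw [this, Finset.sum_apply, Finset.sum_apply]
      refine Finset.sum_congr rfl fun ξ _ => ?_
      simp
    rw [h2, classInner_sum_left] at h1
    have hnat : ∀ ξ : IrrCharacter S, ∃ n : ℕ, classInner ((m ξ : ℂ) •
        (fun z : Z => (ξ : S → ℂ) ⟨z, hZS z.2⟩)) (ξ' : Z → ℂ) = n := by
      intro ξ
      obtain ⟨n, hn⟩ := classInner_natCast (isCharacter_comp (irr_isCharacter ξ)
        (Subgroup.inclusion hZS)) (irr_isCharacter ξ')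
      refine ⟨m ξ * n, ?_⟩
      rw [classInner_smul_left, Nat.cast_mul, ← hn]
      rfl
    choose n hn using hnat
    simp only [hn] at h1
    have h3 : ∑ ξ : IrrCharacter S, n ξ = 0 := by exact_mod_cast h1
    rw [Finset.sum_eq_zero_iff] at h3
    have h4 := h3 ⟨η, hη⟩ (Finset.mem_univ _)
    have h5 := hn ⟨η, hη⟩
    rw [h4, classInner_smul_left, Nat.cast_zero, mul_eq_zero] at h5
    rcases h5 with h5 | h5
    · exact absurd (by exact_mod_cast h5) hm0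
    · rw [ha] at h5
      exact_mod_cast h5
  refine ⟨a ⟨θ, hθ⟩, ?_, ?_⟩
  · intro h0
    apply irr_one_ne_zero hη
    have h1 := congrFun hasum 1
    rw [Finset.sum_apply, Finset.sum_eq_zero] at h1
    · exact h1
    · intro ψ _
      by_cases hψ : ψ = ⟨θ, hθ⟩
      · rw [hψ, h0]; simp
      · rw [hzero ψ hψ]; simp
  · intro z
    have h1 := congrFun hasum z
    change η ⟨z, hZS z.2⟩ = _ at h1
    rw [h1, Finset.sum_apply, Finset.sum_eq_single (⟨θ, hθ⟩ : IrrCharacter Z)]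
    · simp
    · intro ψ _ hψ
      rw [hzero ψ hψ]; simp
    · intro h; exact absurd (Finset.mem_univ _) h

end overSec

section induced

variable {G : Type*} [Group G] [Fintype G] {Z K : Subgroup G} [Fintype Z] [hZn : Z.Normal]
  [hKn : K.Normal] {χ : G → ℂ} {θ : Z → ℂ} {e : ℕ} {p : ℕ} [hp : Fact p.Prime]

/-- An irreducible character of `K` of degree `χ(1) / |G : K|`. -/
theorem exists_irr_of_induced (hχ : IsIrrCharacter G χ) (hθ : IsIrrCharacter Z θ)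
    (hr : ∀ z : Z, χ z = (e : ℂ) * θ z) (hZK : Z ≤ K) [Fintype K]
    {φ₀ : K → ℂ} (hφ₀ : IsCharacter K φ₀) (hind : indFun K φ₀ = χ) :
    ∃ (φ : K → ℂ) (f : ℕ), IsIrrCharacter K φ ∧ (∀ z : Z, φ ⟨z, hZK z.2⟩ = (f : ℂ) * θ z) ∧
      e = K.index * f := by
  classical
  have hχc := isCharacter_of_isIrr hχ
  have hcl := isClassFunction_of_isCharacter hχc
  have h1 : classInner φ₀ (fun k : K => χ k) ≠ 0 := by
    rw [← frobenius_reciprocity K φ₀ χ hcl, hind]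
    have := classInner_irr_self (⟨χ, hχ⟩ : IrrCharacter G)
    simp only at this
    rw [this]; exact one_ne_zero
  obtain ⟨φ, hφ, h2, h3⟩ := exists_common_constituent hφ₀ h1
  have hφc := isCharacter_of_isIrr hφ
  rw [classInner_comm_of_isCharacter hφc (isCharacter_restrict hχc K)] at h3
  obtain ⟨f, hf0, hf⟩ := restrict_of_constituent hχ hθ hr hZK hφ h3
  refine ⟨φ, f, hφ, hf, ?_⟩
  -- degrees
  obtain ⟨d, hd⟩ := exists_nat_degree hφc
  obtain ⟨d₀, hd₀⟩ := exists_nat_degree hφ₀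
  obtain ⟨n, hn⟩ := exists_nat_degree hχc
  obtain ⟨m, hm⟩ := classInner_natCast hφ₀ hφc
  have hm0 : m ≠ 0 := by rintro rfl; exact h2 (by rw [hm]; simp)
  have h4 := mult_mul_degree_le hφ₀ hφ hm hd hd₀
  have h5 : d ≤ d₀ := le_trans (Nat.le_mul_of_pos_left d (Nat.pos_of_ne_zero hm0)) h4
  have h6 : classInner (indFun K φ) χ ≠ 0 := by
    rw [frobenius_reciprocity K φ χ hcl,
      classInner_comm_of_isCharacter hφc (isCharacter_restrict hχc K)]
    exact h3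
  have hic := indFun_isCharacter K φ hφc
  obtain ⟨m', hm'⟩ := classInner_natCast hic hχc
  have hm0' : m' ≠ 0 := by rintro rfl; exact h6 (by rw [hm']; simp)
  have h7 : indFun K φ 1 = ((K.index * d : ℕ) : ℂ) := by
    rw [indFun_one_apply, hd]; push_cast; rfl
  have h8 := mult_mul_degree_le hic hχ hm' hn h7
  have h9 : n ≤ K.index * d := le_trans (Nat.le_mul_of_pos_left n (Nat.pos_of_ne_zero hm0')) h8
  have h10 : n = K.index * d₀ := by
    have h11 : indFun K φ₀ 1 = ((K.index * d₀ : ℕ) : ℂ) := by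
      rw [indFun_one_apply, hd₀]; push_cast; rfl
    rw [hind, hn] at h11
    exact_mod_cast h11
  have hK0 : 0 < K.index := Nat.pos_of_ne_zero Subgroup.index_ne_zero_of_finite
  have h12 : d₀ ≤ d := Nat.le_of_mul_le_mul_left (h10 ▸ h9) hK0
  have h13 : n = K.index * d := by rw [h10, le_antisymm h12 h5]
  have hθ1 : θ 1 ≠ 0 := irr_one_ne_zero hθ
  have h14 : (e : ℂ) = (K.index : ℂ) * f := by
    apply mul_right_cancel₀ hθ1
    have e1 := hr 1
    have e2 := hf 1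
    change χ 1 = _ at e1
    change φ 1 = _ at e2
    rw [← e1, hn, h13, Nat.cast_mul, ← hd, e2]; ring
  exact_mod_cast h14

/-- `p`-complements in `G / K` if `χ` is induced from `K`. -/
theorem fr_induced_compl (hχ : IsIrrCharacter G χ) (hθ : IsIrrCharacter Z θ)
    (hr : ∀ z : Z, χ z = (e : ℂ) * θ z) (he : e ^ 2 = Z.index) (hZK : Z ≤ K)
    [Fintype K] {φ₀ : K → ℂ} (hφ₀ : IsCharacter K φ₀) (hind : indFun K φ₀ = χ) :
    ∃ M : Subgroup (G ⧸ K), ¬ p ∣ Nat.card M ∧ ∃ j, M.index = p ^ j := by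
  classical
  obtain ⟨φ₁, f₁, hφ₁, hφ₁r, hef⟩ := exists_irr_of_induced hχ hθ hr hZK hφ₀ hind
  obtain ⟨S, hZS, hS, hSZ, hSK, hQK, hfr⟩ := sylow_preimage (p := p) Z K hZK
  have : Fintype S := Fintype.ofFinite _
  have : Fintype (S ⊓ K : Subgroup G) := Fintype.ofFinite _
  have : Fintype (Z.subgroupOf S) := Fintype.ofFinite _
  have : Fintype ((S ⊓ K).subgroupOf S) := Fintype.ofFinite _
  have hQn : ((S ⊓ K).subgroupOf S).Normal := by
    rw [Subgroup.inf_subgroupOf_left]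
    infer_instance
  obtain ⟨η, f, hη, hf, hηr⟩ := fr_data hχ hθ hr he hZK hZS hS hSZ
  have hZQ0 : Z ≤ S ⊓ K := le_inf hZS hZK
  -- the restriction of `φ₁`
  have hψ : IsCharacter (S ⊓ K : Subgroup G) (fun q => φ₁ ⟨q, q.2.2⟩) :=
    isCharacter_comp (isCharacter_of_isIrr hφ₁) (Subgroup.inclusion inf_le_right)
  have hψr : ∀ z : Z, (fun q : (S ⊓ K : Subgroup G) => φ₁ ⟨q, q.2.2⟩) ⟨z, hZQ0 z.2⟩ =
      (f₁ : ℂ) * θ z := fun z => hφ₁r z
  have hψ0 : (fun q : (S ⊓ K : Subgroup G) => φ₁ ⟨q, q.2.2⟩) ≠ 0 := by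
    intro h
    have := congrFun h 1
    exact irr_one_ne_zero hφ₁ this
  obtain ⟨φ, hφ, hne⟩ := exists_constituent hψ hψ0
  obtain ⟨a, ha0, ha⟩ := over_of_constituent hθ hZQ0 hψ hψr hφ hne
  refine fr_pcompl hχ hθ hr he hZK hZS hS hSZ hSK hfr hφ ha (stab_of_inertia ?_)
  have hle : S ⊓ K ≤ S := inf_le_left
  have hZQ : Z.subgroupOf S ≤ (S ⊓ K).subgroupOf S := Subgroup.comap_mono hZQ0
  -- `a ∣ f₁`
  have hdvd : a ∣ f₁ := by
    have : Fintype (IrrCharacter (S ⊓ K : Subgroup G)) := Fintype.ofFinite _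
    obtain ⟨m, hm, hsum⟩ := exists_mult_of_isCharacter hψ
    have h1 := congrFun hsum 1
    rw [Finset.sum_apply] at h1
    have h2 : ∀ ξ : IrrCharacter (S ⊓ K : Subgroup G), (m ξ • (ξ : ↥(S ⊓ K) → ℂ)) 1 =
        (m ξ : ℂ) * φ 1 := by
      intro ξ
      by_cases h0 : m ξ = 0
      · rw [h0]; simp
      · obtain ⟨a', -, ha'⟩ := over_of_constituent hθ hZQ0 hψ hψr ξ.2
          (by rw [hm]; exact_mod_cast h0)
        obtain ⟨s, hs, hs'⟩ := fr_conj hθ hZK hZS hη hf hηr hφ ξ.2 ha ha'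
        have h3 := hs' 1 (one_mem _) (by simp)
        have h4 : (ξ : ↥(S ⊓ K) → ℂ) 1 = φ 1 := by
          have e1 : (ξ : ↥(S ⊓ K) → ℂ) 1 = (ξ : ↥(S ⊓ K) → ℂ) ⟨1, one_mem _⟩ := rfl
          rw [e1, ← h3]
          congr 1
          apply Subtype.ext
          simp
        rw [Pi.smul_apply, h4, nsmul_eq_mul]
    rw [Finset.sum_congr rfl fun ξ _ => h2 ξ, ← Finset.sum_mul] at h1
    have hθ1 : θ 1 ≠ 0 := irr_one_ne_zero hθ
    have h5 : φ₁ 1 = (f₁ : ℂ) * θ 1 := hφ₁r 1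
    have h6 : φ 1 = (a : ℂ) * θ 1 := ha 1
    have h7 : (f₁ : ℂ) * θ 1 = (∑ ξ, (m ξ : ℂ)) * ((a : ℂ) * θ 1) := by
      rw [← h5, ← h6]; exact h1
    have h8 : (f₁ : ℂ) = ((a * ∑ ξ, m ξ : ℕ) : ℂ) := by
      apply mul_right_cancel₀ hθ1
      rw [h7]; push_cast; ring
    exact ⟨∑ ξ, m ξ, by exact_mod_cast h8⟩
  -- the numbers
  obtain ⟨g, hg1, hg2, hg3⟩ := mid_numbers (S := S) (Z := Z.subgroupOf S)
    (Q := (S ⊓ K).subgroupOf S) (θ := sc S θ) hη (sc_irr hZS hθ)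
    (fun z => hηr ⟨((z : S) : G), z.2⟩) hf hZQ (sc_irr hle hφ)
    (fun z => ha ⟨((z : S) : G), z.2⟩)
  have hr1 : (Z.subgroupOf S).relIndex ((S ⊓ K).subgroupOf S) = Z.relIndex (S ⊓ K) := by
    rw [Subgroup.relIndex_subgroupOf hle]
  have hr2 : ((S ⊓ K).subgroupOf S).index = K.relIndex S :=
    Subgroup.inf_relIndex_left S K
  rw [hr1] at hg1
  rw [hr2] at hg3
  have hp' := hp.out
  set ind := (inertia ((S ⊓ K).subgroupOf S) (sc S φ)).index with hind'
  have hfin : ∀ A B : Subgroup G, A.relIndex B ≠ 0 := fun A B =>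
    (Subgroup.index_ne_zero_of_finite : (A.subgroupOf B).index ≠ 0)
  have hfi : ∀ A : Subgroup G, A.index ≠ 0 := fun A => Subgroup.index_ne_zero_of_finite
  obtain ⟨k, hk⟩ := hSK
  have he0 := fr_e_pos hχ hr
  have hf0 : f ≠ 0 := by
    rintro rfl
    exact hfin Z S (by rw [← hf]; rfl)
  have hf10 : f₁ ≠ 0 := by rintro rfl; exact he0 (by rw [hef, mul_zero])
  have hg0 : g ≠ 0 := by
    rintro rfl
    rw [zero_mul, zero_mul] at hg2
    exact hf0 hg2
  have i1 := Subgroup.relIndex_mul_relIndex Z (S ⊓ K) K hZQ0 inf_le_right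
  have i2 := Subgroup.relIndex_mul_index hZK
  have i3 := Subgroup.relIndex_mul_index hZS
  have n1 := congrArg (fun n : ℕ => n.factorization p) i1
  have n2 := congrArg (fun n : ℕ => n.factorization p) i2
  have n3 := congrArg (fun n : ℕ => n.factorization p) i3
  have n4 := congrArg (fun n : ℕ => n.factorization p) hg1
  have n5 := congrArg (fun n : ℕ => n.factorization p) hf
  have n6 := congrArg (fun n : ℕ => n.factorization p) he
  have n7 := congrArg (fun n : ℕ => n.factorization p) hef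
  have n8 : a.factorization p ≤ f₁.factorization p := by
    rw [← hp'.pow_dvd_iff_le_factorization hf10]
    exact (Nat.ordProj_dvd a p).trans hdvd
  rw [Nat.factorization_mul (hfin _ _) (hfin _ _), Finsupp.add_apply,
    Nat.factorization_eq_zero_of_not_dvd hQK, add_zero] at n1
  rw [Nat.factorization_mul (hfin _ _) (hfi _), Finsupp.add_apply] at n2
  rw [Nat.factorization_mul (hfin _ _) (hfi _), Finsupp.add_apply,
    Nat.factorization_eq_zero_of_not_dvd hS, add_zero] at n3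
  rw [Nat.factorization_mul hg0 (hfin _ _), Nat.factorization_mul hf0 ha0, Finsupp.add_apply,
    Finsupp.add_apply] at n4
  rw [Nat.factorization_pow, Finsupp.smul_apply, smul_eq_mul] at n5
  rw [Nat.factorization_pow, Finsupp.smul_apply, smul_eq_mul] at n6
  rw [Nat.factorization_mul (hfi _) hf10, Finsupp.add_apply] at n7
  have hgν : g.factorization p = 0 := by omega
  have hg1' : g = 1 := by
    have h1 : g ∣ p ^ k := by
      rw [← hk, ← hg3]
      exact Dvd.dvd.mul_right (dvd_pow_self g two_ne_zero) _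
    obtain ⟨j, -, hj⟩ := (Nat.dvd_prime_pow hp').1 h1
    rw [hj, hp'.factorization_pow, Finsupp.single_eq_same] at hgν
    rw [hj, hgν, pow_zero]
  rw [hg1', one_pow, one_mul] at hg3
  -- the inertia group
  have hQT : (S ⊓ K).subgroupOf S ≤ inertia ((S ⊓ K).subgroupOf S) (sc S φ) :=
    le_inertia _ (isClassFunction_of_isCharacter (isCharacter_of_isIrr (sc_irr hle hφ)))
  have h1 := Subgroup.relIndex_mul_index hQT
  rw [hr2, ← hind', hg3] at h1
  have h2 : ((S ⊓ K).subgroupOf S).relIndex (inertia ((S ⊓ K).subgroupOf S) (sc S φ)) = 1 := by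
    apply Nat.eq_of_mul_eq_mul_right (Nat.pos_of_ne_zero (hfin K S))
    rw [one_mul]; exact h1
  rw [Subgroup.relIndex_eq_one] at h2
  exact le_antisymm h2 hQT

end induced

end Cfsg.Agent.H76
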