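import Cfsg.Agent.H76.OneClass
import Cfsg.Agent.H76.FRRank
import Cfsg.Agent.H4.SecSum
import Cfsg.Agent.H4.BlkKer
import Cfsg.Agent.BlkC.RankOne
import Cfsg.Agent.BlkC.SubPair
import Cfsg.Agent.BlkInd.ThirdMain
import Cfsg.Agent.BlkInd.FirstMain
import Cfsg.Agent.S4492
import Cfsg.Agent.S4436
import Cfsg.Agent.S4435
import Cfsg.Agent.S4652

/-!
# Blocks with `k(B) - l(B) = 1`
-/

set_option autoImplicit false
set_option linter.unusedSectionVars false

namespace Cfsg.Agent.H76

open scoped ComplexConjugate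
open Cfsg Cfsg.Agent.CharBase Cfsg.Agent.Char Cfsg.Agent.Blk Cfsg.Agent.BlkC

universe u

variable {G : Type u} [Group G] [Finite G] {M : Ideal AlgInt} {p : ℕ} [hp : Fact p.Prime]

theorem exists_inducing (hM : IsPModular p M) {B : Set (IrrCharacter G)} (hB : IsPBlock M B)
    {x : G} (hx : ∃ k : ℕ, orderOf x = p ^ k) {y : G} (hyx : Commute y x)
    (hy : ¬ MemLocalIdeal M (blockCoeff B y)) :
    ∃ b, IsInducedBlock M (Subgroup.centralizer ({x} : Set G)) b B := by
  have := Fintype.ofFinite G
  have hMp := isPrime_of_isPModular hM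
  rw [← centralizer_zpowers_eq x]
  have hPp : IsPGroup p (Subgroup.zpowers x) := by
    obtain ⟨k, hk⟩ := hx
    exact IsPGroup.of_card (by rw [Nat.card_zpowers, hk])
  refine BlkInd.exists_block_of_br hM hPp ?_ le_rfl ?_ hB (y := y) ?_ hy
  · rw [Subgroup.zpowers_le, centralizer_zpowers_eq]
    rw [Subgroup.mem_centralizer_singleton_iff]
  · exact Subgroup.centralizer_le_normalizer _
  · rw [centralizer_zpowers_eq, Subgroup.mem_centralizer_singleton_iff]
    exact hyx.eq

/-- All the relevant `p`-elements are conjugate, and the ranks are `1`. -/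
theorem km_main (hM : IsPModular p M) {B : Set (IrrCharacter G)} (hB : IsPBlock M B)
    (hk : Nat.card B = blockRank p B + 1) :
    ∃ x₀ : G, (∀ x y : G, (∃ k : ℕ, orderOf x = p ^ k) → x ≠ 1 → Commute y x →
      ¬ MemLocalIdeal M (blockCoeff B y) → IsConj x x₀) ∧
      ∀ b, IsInducedBlock M (Subgroup.centralizer ({x₀} : Set G)) b B → blockRank p b = 1 := by
  classical
  have := Fintype.ofFinite G
  obtain ⟨X, hX⟩ := H4.exists_isNTRep G p
  have h1 := H4.card_eq_add_sum hM hB hX
  rw [hk] at h1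
  have h2 := Nat.add_left_cancel h1
  -- every nonempty term is positive
  have hpos : ∀ x ∈ X, ∀ b, IsInducedBlock M (Subgroup.centralizer ({x} : Set G)) b B →
      1 ≤ ∑ b ∈ H4.indB M (Subgroup.centralizer ({x} : Set G)) B, blockRank p b := by
    intro x hx b hb
    refine le_trans (blockRank_pos hM hb.1) ?_
    exact Finset.single_le_sum (f := fun b => blockRank p b) (fun _ _ => Nat.zero_le _)
      (H4.mem_indB.mpr hb)
  obtain ⟨x₀, hx₀, hne⟩ := Finset.exists_ne_zero_of_sum_ne_zero (by rw [← h2]; exact one_ne_zero)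
  have h3 : ∀ x ∈ X, x ≠ x₀ →
      ∑ b ∈ H4.indB M (Subgroup.centralizer ({x} : Set G)) B, blockRank p b = 0 := by
    intro x hx hxne
    by_contra h0
    have h4 : ∑ x' ∈ ({x, x₀} : Finset G), ∑ b ∈ H4.indB M
        (Subgroup.centralizer ({x'} : Set G)) B, blockRank p b ≤ 1 := by
      rw [h2]
      apply Finset.sum_le_sum_of_subset
      intro y hy
      rw [Finset.mem_insert, Finset.mem_singleton] at hy
      rcases hy with rfl | rfl <;> assumption
    rw [Finset.sum_pair hxne] at h4
    omega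
  refine ⟨x₀, ?_, ?_⟩
  · intro x y hx hx1 hyx hy
    obtain ⟨x', ⟨hx'X, hxx'⟩, -⟩ := hX.rep x hx hx1
    by_cases hxe : x' = x₀
    · rw [← hxe]; exact hxx'
    · exfalso
      obtain ⟨g, hg⟩ := isConj_iff.mp hxx'
      have hy' : ¬ MemLocalIdeal M (blockCoeff B (g * y * g⁻¹)) := by
        rw [blockCoeff_isClassFunction B y g]; exact hy
      have hc : Commute (g * y * g⁻¹) x' := by
        rw [← hg]
        exact hyx.map (MulAut.conj g).toMonoidHom
      obtain ⟨b, hb⟩ := exists_inducing hM hB (hX.pel x' hx'X) hc hy'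
      have := hpos x' hx'X b hb
      rw [h3 x' hx'X hxe] at this
      omega
  · intro b hb
    have h5 : ∑ b ∈ H4.indB M (Subgroup.centralizer ({x₀} : Set G)) B, blockRank p b ≤ 1 := by
      rw [h2]
      exact Finset.single_le_sum (f := fun x => ∑ b ∈ H4.indB M
        (Subgroup.centralizer ({x} : Set G)) B, blockRank p b) (fun _ _ => Nat.zero_le _) hx₀
    have h6 := Finset.single_le_sum (f := fun b => blockRank p b) (fun _ _ => Nat.zero_le _)
      (H4.mem_indB.mpr hb)
    have h7 := blockRank_pos hM hb.1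
    omega

/-- a defect group gives commuting defect elements -/
theorem isConj_of_mem_defect (hM : IsPModular p M) {B : Set (IrrCharacter G)} (hB : IsPBlock M B)
    (hk : Nat.card B = blockRank p B + 1) {D : Subgroup G} (hD : IsDefectGroup p M B D) :
    ∀ x ∈ D, ∀ y ∈ D, x ≠ 1 → y ≠ 1 → IsConj x y := by
  classical
  have := Fintype.ofFinite G
  obtain ⟨x₀, h1, -⟩ := km_main hM hB hk
  obtain ⟨g, hg, P, rfl⟩ := hD
  obtain ⟨hp1, hp2, -⟩ := sylow_centralizer_spec P
  have key : ∀ x ∈ (P : Subgroup (Subgroup.centralizer ({g} : Set G))).map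
      (Subgroup.centralizer ({g} : Set G)).subtype, x ≠ 1 → IsConj x x₀ := by
    intro x hx hx1
    obtain ⟨k, hk'⟩ := IsPGroup.iff_orderOf.mp hp1 ⟨x, hx⟩
    rw [Subgroup.orderOf_mk] at hk'
    exact h1 x g ⟨k, hk'⟩ hx1 (hp2 x hx) hg.2.1
  intro x hx y hy hx1 hy1
  exact (key x hx hx1).trans (key y hy hy1).symm

/-- rank one principal block: the `p`-regular elements form a subgroup -/
theorem regular_subgroup_of_rank_one (hM : IsPModular p M) {H : Type u} [Group H] [Finite H]
    (h1 : blockRank p (principalBlock M H) = 1) :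
    ∃ K : Subgroup H, ∀ y, y ∈ K ↔ ¬ p ∣ orderOf y := by
  classical
  have hMp := isPrime_of_isPModular hM
  have := Fintype.ofFinite H
  refine ⟨H4.blockKerSubgroup (principalBlock M H), fun y => ⟨fun hy hdvd => ?_, fun hy => ?_⟩⟩
  · apply H4.not_dvd_card_blockKer hM (isPBlock_principalBlock M (G := H))
    refine hdvd.trans ?_
    rw [← Subgroup.orderOf_mk y hy]
    exact orderOf_dvd_natCard _
  · rw [H4.mem_blockKerSubgroup]
    intro χ hχ
    have h2 := proportional_of_rank_one h1 hχ (one_mem_principal (G := H) (M := M)) hy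
    have h3 : (charDegree ((oneIrr H : IrrCharacter H) : H → ℂ) : ℂ) = 1 := by
      rw [← charDegree_spec]; rfl
    rw [h3, mul_one, ← charDegree_spec] at h2
    rw [h2]
    exact mul_one _

/-- `p`-nilpotent centralizers for the principal block -/
theorem elem_principal (hM : IsPModular p M)
    (hk : Nat.card (principalBlock M G) = blockRank p (principalBlock M G) + 1)
    {D : Subgroup G} (hD : IsDefectGroup p M (principalBlock M G) D) :
    IsElementaryAbelian p D := by
  classical
  have := Fintype.ofFinite G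
  have hMp := isPrime_of_isPModular hM
  have hB : IsPBlock M (principalBlock M G) := isPBlock_principalBlock M
  obtain ⟨P, rfl⟩ := (S4652.result p M hM D).mp hD
  have hconj := isConj_of_mem_defect hM hB hk hD
  refine elem_of_pnilp P hconj ?_
  intro x hx hx1
  obtain ⟨x₀, h1, h2⟩ := km_main hM hB hk
  obtain ⟨y, hy, Q, hQ⟩ := hD
  obtain ⟨hp1, hp2, -⟩ := sylow_centralizer_spec Q
  rw [← hQ] at hp1 hp2
  obtain ⟨k, hk'⟩ := IsPGroup.iff_orderOf.mp hp1 ⟨x, hx⟩
  rw [Subgroup.orderOf_mk] at hk'
  have hxx₀ := h1 x y ⟨k, hk'⟩ hx1 (hp2 x hx) hy.2.1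
  have hx₀k : ∃ k, orderOf x₀ = p ^ k := ⟨k, (BlkC.orderOf_conj_eq hxx₀).symm.trans hk'⟩
  have hdef := exists_induced hM hx₀k rfl (isPBlock_principalBlock M
    (G := Subgroup.centralizer ({x₀} : Set G)))
  have hind := (BlkInd.third_main hM _ hdef).mpr rfl
  obtain ⟨K, hK⟩ := regular_subgroup_of_rank_one hM (h2 _ hind)
  obtain ⟨g, hg⟩ := isConj_iff.mp hxx₀
  have key : ∀ z, z ∈ (K.map (Subgroup.centralizer ({x₀} : Set G)).subtype).comap
      (MulAut.conj g).toMonoidHom ↔ Commute z x ∧ ¬ p ∣ orderOf z := by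
    intro z
    have ho : orderOf (g * z * g⁻¹) = orderOf z :=
      orderOf_injective (MulAut.conj g).toMonoidHom (MulAut.conj g).injective z
    have hc : Commute (g * z * g⁻¹) x₀ ↔ Commute z x := by
      rw [← hg]
      constructor
      · intro h
        have := h.map (MulAut.conj g⁻¹).toMonoidHom
        simpa [mul_assoc] using this
      · intro h
        exact h.map (MulAut.conj g).toMonoidHom
    rw [Subgroup.mem_comap]
    change g * z * g⁻¹ ∈ _ ↔ _
    rw [← hc, ← ho]
    constructor
    · rintro ⟨w, hw, hwz⟩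
      rw [← hwz]
      refine ⟨Subgroup.mem_centralizer_singleton_iff.mp w.2, ?_⟩
      change ¬ p ∣ orderOf ((w : Subgroup.centralizer ({x₀} : Set G)) : G)
      rw [Subgroup.orderOf_coe]
      exact (hK w).mp hw
    · rintro ⟨h3, h4⟩
      refine ⟨⟨g * z * g⁻¹, Subgroup.mem_centralizer_singleton_iff.mpr h3.eq⟩, (hK _).mpr ?_, rfl⟩
      rw [Subgroup.orderOf_mk]
      exact h4
  refine ⟨_, key, fun a ha z hz => ?_⟩
  rw [key] at ha ⊢
  refine ⟨?_, ?_⟩
  · have h3 : z * a * z⁻¹ * x = x * (z * a * z⁻¹) := by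
      have h4 : z⁻¹ * x = x * z⁻¹ := hz.inv_left.eq
      rw [mul_assoc, h4, mul_assoc, ← mul_assoc a, ha.1.eq, mul_assoc, ← mul_assoc z, hz.eq]
      group
    exact h3
  · rw [orderOf_injective (MulAut.conj z).toMonoidHom (MulAut.conj z).injective a |> fun h =>
      (show orderOf (z * a * z⁻¹) = orderOf a from h)]
    exact ha.2

theorem elementary_map {A A' : Type*} [Group A] [Group A'] {q : ℕ} {D : Subgroup A} (f : A →* A')
    (h : IsElementaryAbelian q D) : IsElementaryAbelian q (D.map f) := by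
  obtain ⟨h1, h2⟩ := h
  constructor
  · refine ⟨⟨?_⟩⟩
    rintro ⟨_, a, ha, rfl⟩ ⟨_, b, hb, rfl⟩
    apply Subtype.ext
    have h3 : (⟨a, ha⟩ : D) * ⟨b, hb⟩ = ⟨b, hb⟩ * ⟨a, ha⟩ := h1.is_comm.comm _ _
    have h4 : a * b = b * a := congrArg Subtype.val h3
    change f a * f b = f b * f a
    rw [← map_mul, h4, map_mul]
  · rintro _ ⟨a, ha, rfl⟩
    rw [← map_pow, h2 a ha, map_one]

/-- the `p`-solvable case -/
theorem elem_psolvable_block (hM : IsPModular p M) (n : ℕ) : ∀ {G : Type u} [Group G] [Finite G],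
    Nat.card G ≤ n → IsPSolvable p G → ∀ (B : Set (IrrCharacter G)), IsPBlock M B →
    Nat.card B = blockRank p B + 1 → ∀ D : Subgroup G, IsDefectGroup p M B D →
    IsElementaryAbelian p D := by
  classical
  have hMp := isPrime_of_isPModular hM
  induction n with
  | zero =>
    intro G _ _ hn
    exact absurd (Nat.le_zero.mp hn) Nat.card_pos.ne'
  | succ n ih =>
    intro G _ _ hn hG B hB hk D hD
    have := Fintype.ofFinite G
    set N := pPrimeCore p G with hN
    have := Fintype.ofFinite N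
    obtain ⟨χ, hχ⟩ := isPBlock_nonempty hB
    obtain ⟨θ, hθ, hθ1⟩ := exists_constituent_restrict N (irr_isCharacter χ)
      (irr_one_ne_zero χ.2)
    set b : Set (IrrCharacter N) := blockOf M θ with hb
    have hbB : IsPBlock M b := isPBlock_blockOf ⟨θ, hθ⟩
    have hθb : (⟨θ, hθ⟩ : IrrCharacter N) ∈ b := mem_blockOf_self ⟨θ, hθ⟩
    have hbsing : ∀ η ∈ b, η = ⟨θ, hθ⟩ := by
      have h1 : blockDefect p b = 0 := by
        unfold blockDefect
        have h2 : (Nat.card N).factorization p = 0 := by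
          apply Nat.factorization_eq_zero_of_not_dvd
          intro h
          have h3 := Solv.pPrimeCore_card_coprime (G := G) p
          exact (Nat.Prime.coprime_iff_not_dvd hp.out).mp h3.symm h
        rw [h2, Nat.zero_sub]
      have h2 := card_eq_one_of_defect_eq_zero hM hbB h1
      rw [Nat.card_eq_one_iff_unique] at h2
      have := h2.1
      intro η hη
      exact congrArg Subtype.val (Subsingleton.elim (⟨η, hη⟩ : b) ⟨⟨θ, hθ⟩, hθb⟩)
    by_cases hinv : ∀ g : G, cj N g θ = θ
    · obtain ⟨B₁, hB₁, hmem, -, hSyl⟩ := S4492.result p M hM hG N hN ⟨θ, hθ⟩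
        (fun g n => congrFun (hinv g) n)
      have h1 : χ ∈ B₁ := (hmem χ).mpr hθ1
      have h2 : B = B₁ := by
        rw [isPBlock_eq_blockOf hB hχ, isPBlock_eq_blockOf hB₁ h1]
      subst h2
      obtain ⟨P, rfl⟩ := hSyl D hD
      exact elem_of_psolvable P (isConj_of_mem_defect hM hB hk hD) hG
    · set T := inertia N θ with hT
      have := Fintype.ofFinite T
      have hNT : N ≤ T := le_inertia N (irr_isClassFunction ⟨θ, hθ⟩)
      have hTstab : ∀ g : G, g ∈ T ↔ ∀ η ∈ b, ∀ η' : IrrCharacter N,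
          (∀ n : N, (η' : N → ℂ) n = (η : N → ℂ) ⟨g * n * g⁻¹,
            (inferInstance : N.Normal).conj_mem n n.2 g⟩) → η' ∈ b := by
        intro g
        constructor
        · intro hg η hη η' hη'
          rw [hbsing η hη] at hη'
          have h1 : (η' : N → ℂ) = θ := by
            rw [← (mem_inertia N).mp hg]
            exact funext hη'
          have h2 : η' = ⟨θ, hθ⟩ := Subtype.ext h1
          rw [h2]; exact hθb
        · intro h
          have h1 := h ⟨θ, hθ⟩ hθb ⟨cj N g θ, isIrrCharacter_cj N g hθ⟩ (fun n => rfl)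
          exact congrArg Subtype.val (hbsing _ h1)
      have hstab := isStab_of hbB hTstab
      have hcovG : ∃ χ ∈ B, ∃ η ∈ b, classInner (fun n : N => (χ : G → ℂ) n) (η : N → ℂ) ≠ 0 :=
        ⟨χ, hχ, ⟨θ, hθ⟩, hθb, hθ1⟩
      obtain ⟨B', hB', hcov, hind⟩ := (S4435.result p M hM N b hbB T hTstab hNT).2.2 B hB hcovG
      have hk' := hstab.rank_eq hNT hM hbB hind hcov
      obtain ⟨D', hD'⟩ := BlkInd.exists_defectGroup hM hB'
      have hD'' := (S4436.result p M hM N b hbB T hTstab hNT B' hB' hcov B hind).1 D' hD'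
      obtain ⟨x, hx⟩ := BlkInd.defectGroup_conj hM hB hD'' hD
      rw [← hx]
      apply elementary_map
      apply elementary_map
      refine ih ?_ (isPSolvable_subgroup T hG) B' hB' ?_ D' hD'
      · have h1 : T ≠ ⊤ := by
          intro h
          apply hinv
          intro g
          have : g ∈ T := by rw [h]; exact Subgroup.mem_top g
          exact this
        have h2 : Nat.card T < Nat.card G := by
          refine lt_of_le_of_ne (Subgroup.card_le_card_group T) ?_
          intro h
          exact h1 (Subgroup.eq_top_of_card_eq T h)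
        omega
      · rw [← hk'.1, ← hk'.2]; exact hk

end Cfsg.Agent.H76
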