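import Cfsg.Agent.H76.PSolvable
import Mathlib.GroupTheory.FixedPointFree
import Cfsg.Agent.CharBase.Column

/-!
# Groups in which all nontrivial `p`-elements are conjugate
-/

set_option autoImplicit false

namespace Cfsg.Agent.H76

open Cfsg

variable {G : Type*} [Group G] [Finite G] {p : ℕ} [hp : Fact p.Prime]

/-- all nonidentity elements of `P` have order `p`. -/
theorem pow_eq_one_of_conj (P : Sylow p G)
    (h : ∀ x ∈ P, ∀ y ∈ P, x ≠ 1 → y ≠ 1 → IsConj x y) : ∀ x ∈ P, x ^ p = 1 := by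
  intro x hx
  by_cases hx1 : x = 1
  · rw [hx1, one_pow]
  have hdvd : p ∣ Nat.card P := by
    have : Nontrivial P := ⟨⟨⟨x, hx⟩, 1, fun h => hx1 (congrArg Subtype.val h)⟩⟩
    obtain ⟨n, hn⟩ := (IsPGroup.iff_card.mp P.2)
    have h1 : 1 < Nat.card P := Finite.one_lt_card
    rw [hn] at h1 ⊢
    exact dvd_pow_self p (by rintro rfl; simp at h1)
  obtain ⟨y, hy⟩ := exists_prime_orderOf_dvd_card' p hdvd
  have hyo : orderOf (y : G) = p := by rw [Subgroup.orderOf_coe]; exact hy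
  have hy1 : (y : G) ≠ 1 := by
    intro h1
    rw [h1, orderOf_one] at hyo
    exact hp.out.one_lt.ne hyo
  obtain ⟨g, hg⟩ := isConj_iff.mp (h y y.2 x hx hy1 hx1)
  have hyp : (y : G) ^ p = 1 := by
    have := pow_orderOf_eq_one (y : G)
    rwa [hyo] at this
  rw [← hg, conj_pow, hyp]
  simp

/-- a normal subgroup of order divisible by `p` contains `P`. -/
theorem le_of_dvd_card (P : Sylow p G)
    (h : ∀ x ∈ P, ∀ y ∈ P, x ≠ 1 → y ≠ 1 → IsConj x y) (A : Subgroup G) [hA : A.Normal]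
    (hdvd : p ∣ Nat.card A) : (P : Subgroup G) ≤ A := by
  obtain ⟨y, hy⟩ := exists_prime_orderOf_dvd_card' p hdvd
  have hyo : orderOf (y : G) = p := by rw [Subgroup.orderOf_coe]; exact hy
  have hy1 : (y : G) ≠ 1 := by
    intro h1
    rw [h1, orderOf_one] at hyo
    exact hp.out.one_lt.ne hyo
  have hpg : IsPGroup p (Subgroup.zpowers (y : G)) :=
    IsPGroup.of_card (n := 1) (by rw [Nat.card_zpowers, hyo, pow_one])
  obtain ⟨Q, hQ⟩ := hpg.exists_le_sylow
  obtain ⟨g, hg⟩ := MulAction.exists_smul_eq G Q P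
  have hyP : g * (y : G) * g⁻¹ ∈ P := by
    rw [← hg]
    exact Subgroup.smul_mem_pointwise_smul _ (MulAut.conj g) _ (hQ (Subgroup.mem_zpowers _))
  have hyA : g * (y : G) * g⁻¹ ∈ A := hA.conj_mem _ y.2 g
  have hne : g * (y : G) * g⁻¹ ≠ 1 := by
    intro h1; exact hy1 (conj_eq_one_iff.mp h1)
  intro x hx
  by_cases hx1 : x = 1
  · rw [hx1]; exact one_mem _
  obtain ⟨c, hc⟩ := isConj_iff.mp (h _ hyP x hx hne hx1)
  rw [← hc]
  exact hA.conj_mem _ hyA c

/-- **`p`-solvable case.** -/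
theorem elem_of_psolvable (P : Sylow p G)
    (h : ∀ x ∈ P, ∀ y ∈ P, x ≠ 1 → y ≠ 1 → IsConj x y) (hG : IsPSolvable p G) :
    IsElementaryAbelian p (P : Subgroup G) := by
  refine ⟨?_, pow_eq_one_of_conj P h⟩
  by_cases hPb : (P : Subgroup G) = ⊥
  · rw [hPb]; infer_instance
  set N := pPrimeCore p G with hN
  set π := QuotientGroup.mk' N with hπ
  have hsurj : Function.Surjective π := QuotientGroup.mk'_surjective N
  have hps : IsPSolvable p (G ⧸ N) := isPSolvable_quotient N hG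
  have hcen := centralizer_pCore_le hps (Solv.pPrimeCore_quotient_pPrimeCore p)
  have hNp : (Nat.card N).Coprime p := Solv.pPrimeCore_card_coprime p
  -- `P ⊓ N = ⊥`
  have hPN : ∀ x ∈ P, x ∈ N → x = 1 := by
    intro x hx hxN
    obtain ⟨k, hk⟩ := IsPGroup.iff_orderOf.mp P.2 ⟨x, hx⟩
    rw [Subgroup.orderOf_mk] at hk
    have h1 : orderOf x ∣ Nat.card N := by
      rw [← Subgroup.orderOf_mk x hxN]; exact orderOf_dvd_natCard _
    rw [hk] at h1
    rw [← orderOf_eq_one_iff, hk]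
    exact Nat.eq_one_of_dvd_coprimes (Nat.Coprime.pow_left k hNp.symm) dvd_rfl h1
  set V := pCore p (G ⧸ N) with hV
  have hVb : V ≠ ⊥ := by
    intro hb
    rw [hb] at hcen
    apply hPb
    rw [eq_bot_iff]
    intro x hx
    have h1 : π x ∈ Subgroup.centralizer ((⊥ : Subgroup (G ⧸ N)) : Set (G ⧸ N)) := by
      rw [Subgroup.mem_centralizer_iff]
      rintro y hy
      rw [SetLike.mem_coe, Subgroup.mem_bot] at hy
      rw [hy, one_mul, mul_one]
    have h2 := hcen h1
    rw [Subgroup.mem_bot, hπ, QuotientGroup.mk'_apply, QuotientGroup.eq_one_iff] at h2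
    rw [Subgroup.mem_bot]
    exact hPN x hx h2
  have hVp : IsPGroup p V := Solv.pCore_isPGroup p
  have : Nontrivial V := (Subgroup.nontrivial_iff_ne_bot V).2 hVb
  have hZ : Nontrivial (Subgroup.center V) := hVp.center_nontrivial
  let W : Subgroup (G ⧸ N) := (Subgroup.center V).map V.subtype
  have hWn : W.Normal := inferInstance
  have hWcard : p ∣ Nat.card W := by
    have h1 : Nat.card W = Nat.card (Subgroup.center V) :=
      (Nat.card_congr ((Subgroup.center V).equivMapOfInjective _ V.subtype_injective).toEquiv).symm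
    rw [h1]
    obtain ⟨n, hn⟩ := IsPGroup.iff_card.mp (hVp.to_subgroup (Subgroup.center V))
    have h2 : 1 < Nat.card (Subgroup.center V) := Finite.one_lt_card
    rw [hn] at h2 ⊢
    exact dvd_pow_self p (by rintro rfl; simp at h2)
  have hcomap : p ∣ Nat.card (W.comap π) := by
    have h1 : Nat.card W ∣ Nat.card (W.comap π) := by
      have h2 : (W.comap π).map π = W := Subgroup.map_comap_eq_self_of_surjective hsurj _
      conv_lhs => rw [← h2]
      exact Subgroup.card_map_dvd _ _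
    exact hWcard.trans h1
  have hle := le_of_dvd_card P h (W.comap π) hcomap
  refine ⟨⟨fun x y => ?_⟩⟩
  apply Subtype.ext
  change (x : G) * y = y * x
  have hx := hle x.2
  have hy := hle y.2
  obtain ⟨a, ha, hax⟩ := hx
  obtain ⟨b, hb, hby⟩ := hy
  have h1 : π ((x : G) * y) = π (y * x) := by
    rw [map_mul, map_mul, ← hax, ← hby]
    have h2 : a * b = b * a := (Subgroup.mem_center_iff.mp ha b).symm
    exact congrArg Subtype.val h2
  have h3 : ((x : G) * y) * ((y : G) * x)⁻¹ ∈ N := by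
    rw [← QuotientGroup.eq_one_iff]
    change π _ = 1
    rw [map_mul, map_inv, h1, mul_inv_cancel]
  have h4 := hPN _ (mul_mem (mul_mem x.2 y.2) (inv_mem (mul_mem y.2 x.2))) h3
  exact mul_inv_eq_one.mp h4

omit [Finite G] in
theorem eq_one_of_regular (P : Sylow p G) {c : G} (hc : c ∈ P) (hr : ¬ p ∣ orderOf c) : c = 1 := by
  obtain ⟨k, hk⟩ := IsPGroup.iff_orderOf.mp P.2 ⟨c, hc⟩
  rw [Subgroup.orderOf_mk] at hk
  rw [← orderOf_eq_one_iff, hk]
  rcases Nat.eq_zero_or_pos k with rfl | h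
  · simp
  · exact absurd (hk ▸ dvd_pow_self p h.ne') hr

/-- **Case of `p`-nilpotent centralizers.** -/
theorem elem_of_pnilp (P : Sylow p G)
    (h : ∀ x ∈ P, ∀ y ∈ P, x ≠ 1 → y ≠ 1 → IsConj x y)
    (hC : ∀ x ∈ P, x ≠ 1 → ∃ N : Subgroup G, (∀ y, y ∈ N ↔ Commute y x ∧ ¬ p ∣ orderOf y) ∧
      ∀ y ∈ N, ∀ z, Commute z x → z * y * z⁻¹ ∈ N) :
    IsElementaryAbelian p (P : Subgroup G) := by
  classical
  have hpow := pow_eq_one_of_conj P h
  refine ⟨?_, hpow⟩
  by_cases hPb : (P : Subgroup G) = ⊥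
  · rw [hPb]; infer_instance
  rcases hp.out.eq_two_or_odd' with rfl | hodd
  · refine ⟨⟨fun x y => ?_⟩⟩
    have hinv : ∀ a : (P : Subgroup G), a⁻¹ = a := by
      intro a
      have h1 : a ^ 2 = 1 := Subtype.ext (hpow a a.2)
      rw [inv_eq_iff_mul_eq_one, ← pow_two]; exact h1
    rw [← hinv (x * y), mul_inv_rev, hinv, hinv]
  have : Nontrivial (P : Subgroup G) := (Subgroup.nontrivial_iff_ne_bot _).2 hPb
  have hcn : Nontrivial (Subgroup.center (P : Subgroup G)) := P.2.center_nontrivial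
  obtain ⟨⟨z₀, hz₀⟩, hz₀1⟩ := exists_ne (1 : Subgroup.center (P : Subgroup G))
  set W : Subgroup G := (P : Subgroup G) ⊓ Subgroup.centralizer ((P : Subgroup G) : Set G) with hW
  set z : G := (z₀ : G) with hz
  have hcomm : ∀ w ∈ W, ∀ u ∈ P, Commute w u := by
    intro w hw u hu
    exact ((Subgroup.mem_centralizer_iff.mp hw.2) u hu).symm
  have hzW : z ∈ W := by
    refine ⟨z₀.2, Subgroup.mem_centralizer_iff.mpr ?_⟩
    intro u hu
    have := Subgroup.mem_center_iff.mp hz₀ ⟨u, hu⟩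
    exact congrArg Subtype.val this
  have hz1 : z ≠ 1 := by
    intro h1
    apply hz₀1
    apply Subtype.ext
    exact Subtype.ext h1
  set L := Subgroup.normalizer ((P : Subgroup G) : Set G) with hL
  have hLP : ∀ y ∈ L, ∀ u ∈ P, y * u * y⁻¹ ∈ P := by
    intro y hy u hu
    exact (Subgroup.mem_normalizer_iff.mp hy u).mp hu
  have hLW : ∀ y ∈ L, ∀ w ∈ W, y * w * y⁻¹ ∈ W := by
    intro y hy w hw
    refine ⟨hLP y hy w hw.1, Subgroup.mem_centralizer_iff.mpr ?_⟩
    intro u hu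
    have h1 : y⁻¹ * u * y ∈ P := by
      have := hLP y⁻¹ (inv_mem hy) u hu
      rwa [inv_inv] at this
    have h2 := (hcomm w hw _ h1).eq
    calc u * (y * w * y⁻¹) = y * ((y⁻¹ * u * y) * w) * y⁻¹ := by group
      _ = y * (w * (y⁻¹ * u * y)) * y⁻¹ := by rw [h2]
      _ = (y * w * y⁻¹) * u := by group
  have key1 : ∀ y ∈ L, ¬ p ∣ orderOf y → ∀ w ∈ W, w ≠ 1 → Commute y w → ∀ u ∈ P, Commute y u := by
    intro y hy hyr w hw hw1 hyw u hu
    obtain ⟨N, hN, hNc⟩ := hC w hw.1 hw1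
    have hyN : y ∈ N := (hN y).mpr ⟨hyw, hyr⟩
    have h1 : y * (u * y⁻¹ * u⁻¹) ∈ N :=
      mul_mem hyN (hNc y⁻¹ (inv_mem hyN) u (hcomm w hw u hu).symm)
    have h2 : y * (u * y⁻¹ * u⁻¹) ∈ P := by
      have : y * (u * y⁻¹ * u⁻¹) = (y * u * y⁻¹) * u⁻¹ := by group
      rw [this]
      exact mul_mem (hLP y hy u hu) (inv_mem hu)
    have h3 := eq_one_of_regular P h2 ((hN _).mp h1).2
    have h4 : y * u * y⁻¹ * u⁻¹ = 1 := by rw [← h3]; group
    have h5 : y * u * y⁻¹ = u := mul_inv_eq_one.mp h4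
    exact mul_inv_eq_iff_eq_mul.mp h5
  -- all nonidentity elements of `W` are conjugate in `L`
  have hconjL : ∀ w ∈ W, w ≠ 1 → ∃ n ∈ L, n * z * n⁻¹ = w := by
    intro w hw hw1
    obtain ⟨g, hg⟩ := isConj_iff.mp (h z hzW.1 w hw.1 hz1 hw1)
    obtain ⟨n, hn, hn'⟩ := P.conj_eq_normalizer_conj_of_mem_centralizer z g⁻¹ hzW.2
      (by rw [inv_inv, hg]; exact hw.2)
    rw [inv_inv, hg] at hn'
    exact ⟨n⁻¹, inv_mem hn, by rw [inv_inv]; exact hn'.symm⟩
  -- an element of `2`-power order moving `z`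
  have hex : ∃ s ∈ L, (∃ k, orderOf s = 2 ^ k) ∧ ¬ Commute s z := by
    by_contra hcon
    push Not at hcon
    let z' : L := ⟨z, Subgroup.le_normalizer hzW.1⟩
    have h2f : Fact (Nat.Prime 2) := ⟨Nat.prime_two⟩
    obtain ⟨S⟩ : Nonempty (Sylow 2 L) := inferInstance
    have hSle : (S : Subgroup L) ≤ Subgroup.centralizer ({z'} : Set L) := by
      intro s hs
      obtain ⟨k, hk⟩ := IsPGroup.iff_orderOf.mp S.2 ⟨s, hs⟩
      rw [Subgroup.orderOf_mk] at hk
      have h1 := hcon (s : G) s.2 ⟨k, by rw [Subgroup.orderOf_coe]; exact hk⟩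
      rw [Subgroup.mem_centralizer_singleton_iff]
      exact Subtype.ext h1
    have h1 : ¬ 2 ∣ (Subgroup.centralizer ({z'} : Set L)).index := by
      intro h2
      exact S.not_dvd_index (h2.trans (Subgroup.index_dvd_of_le hSle))
    apply h1
    have h2 := CharBase.card_isConj_mul_card_centralizer z'
    have h3 : Nat.card {x : L // IsConj z' x} = Nat.card W - 1 := by
      have e : {x : L // IsConj z' x} ≃ {w : W // w ≠ 1} :=
        { toFun := fun x => ⟨⟨(x.1 : G), by
            obtain ⟨c, hc⟩ := isConj_iff.mp x.2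
            rw [← hc]
            exact hLW c c.2 z hzW⟩, by
            intro h0
            have h0' : (x.1 : G) = 1 := congrArg Subtype.val h0
            obtain ⟨c, hc⟩ := isConj_iff.mp x.2
            rw [← hc] at h0'
            exact hz1 (conj_eq_one_iff.mp h0')⟩
          invFun := fun w => ⟨⟨(w.1 : G), Subgroup.le_normalizer w.1.2.1⟩, by
            obtain ⟨n, hn, hnw⟩ := hconjL w.1 w.1.2 (fun h0 => w.2 (Subtype.ext h0))
            rw [isConj_iff]
            exact ⟨⟨n, hn⟩, Subtype.ext hnw⟩⟩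
          left_inv := fun x => rfl
          right_inv := fun w => rfl }
      rw [Nat.card_congr e]
      have := Fintype.ofFinite W
      rw [Nat.card_eq_fintype_card, Nat.card_eq_fintype_card, Fintype.card_subtype_compl,
        Fintype.card_subtype_eq]
    have h4 : (Subgroup.centralizer ({z'} : Set L)).index = Nat.card W - 1 := by
      have h5 := Subgroup.index_mul_card (Subgroup.centralizer ({z'} : Set L))
      rw [← h2, h3] at h5
      exact Nat.eq_of_mul_eq_mul_right Nat.card_pos h5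
    rw [h4]
    have hWp : IsPGroup p W := P.2.to_le inf_le_left
    obtain ⟨n, hn⟩ := IsPGroup.iff_card.mp hWp
    have h6 : Odd (Nat.card W) := by rw [hn]; exact hodd.pow
    exact (Nat.Odd.sub_odd h6 odd_one).two_dvd
  obtain ⟨s, hsL, ⟨k, hk⟩, hsz⟩ := hex
  -- the element `t`
  have hexj : ∃ j, ∀ u ∈ P, Commute (s ^ 2 ^ j) u := by
    refine ⟨k, fun u _ => ?_⟩
    rw [← hk, pow_orderOf_eq_one]
    exact Commute.one_left u
  set j := Nat.find hexj with hj
  have hj1 := Nat.find_spec hexj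
  have hj0 : j ≠ 0 := by
    intro h0
    rw [← hj, h0, pow_zero, pow_one] at hj1
    exact hsz (hj1 z hzW.1)
  obtain ⟨i, hi⟩ := Nat.exists_eq_succ_of_ne_zero hj0
  set t := s ^ 2 ^ i with ht
  have htL : t ∈ L := pow_mem hsL _
  have htr : ¬ p ∣ orderOf t := by
    intro h1
    have h2 : p ∣ 2 ^ k := by
      rw [← hk]
      exact h1.trans (orderOf_pow_dvd _)
    have h3 := hp.out.dvd_of_dvd_pow h2
    rw [Nat.prime_dvd_prime_iff_eq hp.out Nat.prime_two] at h3
    rw [h3] at hodd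
    exact absurd hodd (by decide)
  have ht2 : ∀ u ∈ P, Commute (t * t) u := by
    intro u hu
    have h1 : t * t = s ^ 2 ^ j := by
      rw [hi, ht, ← pow_add, Nat.pow_succ, mul_two]
    rw [h1]
    exact hj1 u hu
  have htn : ¬ ∀ u ∈ P, Commute t u := by
    have := Nat.find_min hexj (m := i) (by rw [← hj, hi]; exact Nat.lt_succ_self i)
    exact this
  have htw : ∀ w ∈ W, Commute t w → w = 1 := by
    intro w hw htw
    by_contra hw1
    exact htn (key1 t htL htr w hw hw1 htw)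
  have htinv : ∀ w ∈ W, t * w * t⁻¹ = w⁻¹ := by
    intro w hw
    have hwt := hLW t htL w hw
    have h1 : w * (t * w * t⁻¹) = 1 := by
      apply htw _ (mul_mem hw hwt)
      have h2 : t * (w * (t * w * t⁻¹)) * t⁻¹ = (t * w * t⁻¹) * ((t * t) * w * (t * t)⁻¹) := by
        group
      have h3 : (t * t) * w * (t * t)⁻¹ = w := by
        rw [(ht2 w hw.1).eq, mul_inv_cancel_right]
      rw [h3, ← (hcomm w hw _ hwt.1).eq] at h2
      exact mul_inv_eq_iff_eq_mul.mp h2
    exact (inv_eq_of_mul_eq_one_right h1).symm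
  have htu : ∀ u ∈ P, Commute t u → u = 1 := by
    intro u hu htu
    by_contra hu1
    obtain ⟨N, hN, hNc⟩ := hC u hu hu1
    have htN : t ∈ N := (hN t).mpr ⟨htu, htr⟩
    have h1 : t * (z * t⁻¹ * z⁻¹) ∈ N :=
      mul_mem htN (hNc t⁻¹ (inv_mem htN) z (hcomm z hzW u hu))
    have h2 : t * (z * t⁻¹ * z⁻¹) = z⁻¹ * z⁻¹ := by
      have : t * (z * t⁻¹ * z⁻¹) = (t * z * t⁻¹) * z⁻¹ := by group
      rw [this, htinv z hzW]
    rw [h2] at h1
    have h3 := eq_one_of_regular P (mul_mem (inv_mem hzW.1) (inv_mem hzW.1)) ((hN _).mp h1).2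
    have h4 : z ^ 2 = 1 := by
      have : (z⁻¹ * z⁻¹)⁻¹ = 1 := by rw [h3, inv_one]
      rw [mul_inv_rev, inv_inv, ← pow_two] at this
      exact this
    have h5 : z ^ p = 1 := hpow z hzW.1
    apply hz1
    obtain ⟨m, hm⟩ := hodd
    rw [hm, pow_succ, pow_mul, h4, one_pow, one_mul] at h5
    exact h5
  -- conjugation by `t`
  let φ : (P : Subgroup G) →* (P : Subgroup G) :=
    { toFun := fun u => ⟨t * u * t⁻¹, hLP t htL u u.2⟩
      map_one' := by apply Subtype.ext; simp
      map_mul' := fun a b => by apply Subtype.ext; simp }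
  have hφ : MonoidHom.FixedPointFree φ := by
    intro u hu
    have h1 : t * (u : G) * t⁻¹ = u := congrArg Subtype.val hu
    exact Subtype.ext (htu u u.2 (mul_inv_eq_iff_eq_mul.mp h1))
  have hφ2 : Function.Involutive φ := by
    intro u
    apply Subtype.ext
    change t * (t * (u : G) * t⁻¹) * t⁻¹ = u
    have h1 : t * (t * (u : G) * t⁻¹) * t⁻¹ = (t * t) * u * (t * t)⁻¹ := by group
    rw [h1, (ht2 u u.2).eq, mul_inv_cancel_right]
  exact ⟨⟨fun x y => (hφ.commute_all_of_involutive hφ2 x y).eq⟩⟩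

end Cfsg.Agent.H76
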