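import Mathlib.GroupTheory.Transfer
import Mathlib.GroupTheory.Abelianization.Defs

/-!
# Transfer and restriction
`transfer` commutes with composition by a homomorphism, and the transfer of the restriction of a
homomorphism defined on the whole group is its `index`-th power.
-/

set_option autoImplicit false

namespace Cfsg.Agent.H76

open Subgroup MonoidHom

variable {G : Type*} [Group G] {H : Subgroup G} {A B : Type*} [CommGroup A] [CommGroup B]

/-- The transfer of a composite. -/
theorem transfer_comp [H.FiniteIndex] (ϕ : H →* A) (f : A →* B) (g : G) :
    transfer (f.comp ϕ) g = f (transfer ϕ g) := by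
  rw [transfer_def (f.comp ϕ) default g, transfer_def ϕ default g]
  unfold leftTransversals.diff
  simp only [map_prod, MonoidHom.comp_apply]

/-- The transfer of the restriction of `ν` is the `index`-th power of `ν`. -/
theorem transfer_restrict [H.FiniteIndex] (ν : G →* A) (g : G) :
    transfer (ν.comp H.subtype) g = ν g ^ H.index := by
  let _ := H.fintypeQuotientOfFiniteIndex
  rw [transfer_def (ν.comp H.subtype) default g]
  unfold leftTransversals.diff
  simp only [MonoidHom.comp_apply, Subgroup.subtype_apply, map_mul, map_inv]
  rw [Finset.prod_mul_distrib]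
  have h : ∀ q : G ⧸ H, ν (((g • (default : H.LeftTransversal)).2.leftQuotientEquiv q : G)) =
      ν g * ν ((default : H.LeftTransversal).2.leftQuotientEquiv (g⁻¹ • q) : G) := by
    intro q
    rw [smul_apply_eq_smul_apply_inv_smul, smul_eq_mul, map_mul]
  rw [Finset.prod_congr rfl (fun q _ => h q), Finset.prod_mul_distrib, Finset.prod_const,
    Fintype.prod_equiv (MulAction.toPerm g⁻¹)
      (fun q => ν ((default : H.LeftTransversal).2.leftQuotientEquiv (g⁻¹ • q) : G))
      (fun q => ν ((default : H.LeftTransversal).2.leftQuotientEquiv q : G)) (fun q => rfl)]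
  rw [mul_left_comm, ← Finset.prod_mul_distrib]
  simp only [inv_mul_cancel, Finset.prod_const_one, mul_one]
  rw [Finset.card_univ, Subgroup.index_eq_card, Nat.card_eq_fintype_card]

end Cfsg.Agent.H76
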