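import Cfsg.Agent.H76.Twg4
import Cfsg.Agent.H76.Triple2

/-!
# Reductions: linearisation
-/

set_option autoImplicit false
set_option linter.unusedSectionVars false
set_option linter.unusedFintypeInType false

namespace Cfsg.Agent.H76.Twc

open scoped ComplexConjugate Pointwise
open Cfsg Cfsg.Agent.CharBase Cfsg.Agent.Char

universe u v w x

section Lin

variable {A : Type u} [Group A] [Finite A] {L : Subgroup A} [hL : L.Normal] {θ : L → ℂ}
  {H : Type u} [Group H] [Finite H] (T : Trip.Lin L θ H)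

/-- the central subgroup -/
def ZQ : Subgroup (H ⧸ T.I) := T.p.ker.map (QuotientGroup.mk' T.I)

theorem ZQ_central : ZQ T ≤ Subgroup.center (H ⧸ T.I) := by
  rintro _ ⟨z, hz, rfl⟩
  rw [Subgroup.mem_center_iff]
  intro g
  obtain ⟨h, rfl⟩ := QuotientGroup.mk_surjective g
  change ((h : H ⧸ T.I)) * ((z : H) : H ⧸ T.I) = ((z : H) : H ⧸ T.I) * (h : H ⧸ T.I)
  rw [← QuotientGroup.mk_mul, ← QuotientGroup.mk_mul, T.central z hz h]

theorem ZQ_le (X : Subgroup A) : ZQ T ≤ T.bar X := by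
  rintro _ ⟨z, hz, rfl⟩
  refine ⟨z, ?_, rfl⟩
  rw [SetLike.mem_coe, Trip.Lin.mem_up, MonoidHom.mem_ker.mp hz]
  exact X.one_mem

/-- kernel of `p` and `ZQ` -/
noncomputable def eZ : T.p.ker ≃* ZQ T :=
  MulEquiv.ofBijective ((QuotientGroup.mk' T.I).subgroupMap T.p.ker) (by
    constructor
    · intro a b hab
      have h1 : (((a : H) : H ⧸ T.I)) = ((b : H) : H ⧸ T.I) := congrArg Subtype.val hab
      have h2 : (a : H)⁻¹ * b ∈ T.I := QuotientGroup.eq.mp h1
      have h3 := T.eq_one_of_mem h2 (by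
        rw [map_mul, map_inv, MonoidHom.mem_ker.mp a.2, MonoidHom.mem_ker.mp b.2]
        simp)
      exact Subtype.ext (inv_mul_eq_one.mp h3)
    · exact MonoidHom.subgroupMap_surjective _ _)

theorem eZ_coe (z : T.p.ker) : ((eZ T z : ZQ T) : H ⧸ T.I) = ((z : H) : H ⧸ T.I) := rfl

/-- the linear character -/
noncomputable def lamZ : ZQ T →* ℂ :=
  (Units.coeHom ℂ).comp ((T.μ)⁻¹.comp (eZ T).symm.toMonoidHom)

theorem lamZ_eZ (z : T.p.ker) : lamZ T (eZ T z) = ((T.μ z : ℂˣ) : ℂ)⁻¹ := by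
  change ((((T.μ)⁻¹ ((eZ T).symm (eZ T z)) : ℂˣ)) : ℂ) = _
  rw [MulEquiv.symm_apply_apply, MonoidHom.inv_apply, Units.val_inv_eq_inv_val]

theorem lamZ_irr : IsIrrCharacter (ZQ T) (lamZ T) := isIrrCharacter_of_hom _

theorem card_bar {X : Subgroup A} (hX : L ≤ X) :
    Nat.card (T.bar X) * Nat.card L = Nat.card X * Nat.card (ZQ T) := by
  have h1 : Nat.card (T.up X) = Nat.card (T.bar X) * Nat.card L := by
    rw [← (T.qX X).ker.card_mul_index, Subgroup.index_ker,
      MonoidHom.range_eq_top.mpr (T.qX_surj X), Subgroup.card_top,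
      ← Nat.card_congr (T.kerEquiv hX).toEquiv, mul_comm]
  have h2 : Nat.card (T.up X) = Nat.card X * Nat.card (ZQ T) := by
    rw [← (T.pX X).ker.card_mul_index, Subgroup.index_ker,
      MonoidHom.range_eq_top.mpr (T.pX_surj X), Subgroup.card_top, mul_comm,
      ← Nat.card_congr (eZ T).toEquiv]
    congr 1
    refine Nat.card_congr ⟨fun z => ⟨((z : T.up X) : H), ?_⟩, fun z => ⟨⟨z, ?_⟩, ?_⟩,
      fun _ => rfl, fun _ => rfl⟩
    · have := MonoidHom.mem_ker.mp z.2
      exact MonoidHom.mem_ker.mpr (congrArg Subtype.val this)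
    · rw [Trip.Lin.mem_up, MonoidHom.mem_ker.mp z.2]
      exact X.one_mem
    · exact MonoidHom.mem_ker.mpr (Subtype.ext (MonoidHom.mem_ker.mp z.2))
  rw [← h1, h2]

theorem relIndex_bar {X : Subgroup A} (hX : L ≤ X) :
    (ZQ T).relIndex (T.bar X) = L.relIndex X := by
  have h1 := card_bar T hX
  have h2 : Nat.card (ZQ T) * (ZQ T).relIndex (T.bar X) = Nat.card (T.bar X) := by
    rw [← Subgroup.relIndex_bot_left, ← Subgroup.relIndex_bot_left]
    exact Subgroup.relIndex_mul_relIndex _ _ _ bot_le (ZQ_le T X)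
  have h3 : Nat.card L * L.relIndex X = Nat.card X := by
    rw [← Subgroup.relIndex_bot_left, ← Subgroup.relIndex_bot_left]
    exact Subgroup.relIndex_mul_relIndex _ _ _ bot_le hX
  rw [← h2, ← h3] at h1
  have h4 : 0 < Nat.card (ZQ T) * Nat.card L := Nat.mul_pos Nat.card_pos Nat.card_pos
  apply Nat.eq_of_mul_eq_mul_left h4
  linarith [h1]

theorem index_bar {X : Subgroup A} (hX : L ≤ X) : (T.bar X).index = X.index := by
  have h1 := relIndex_bar T hX
  have h2 := relIndex_bar T (le_top : L ≤ ⊤)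
  have h3 : T.bar (⊤ : Subgroup A) = ⊤ := by
    unfold Trip.Lin.bar Trip.Lin.up
    rw [Subgroup.comap_top]
    exact Subgroup.map_top_of_surjective _ (QuotientGroup.mk'_surjective _)
  rw [h3, Subgroup.relIndex_top_right, Subgroup.relIndex_top_right] at h2
  have h4 := Subgroup.relIndex_mul_index (ZQ_le T X)
  have h5 := Subgroup.relIndex_mul_index hX
  rw [h1] at h4
  rw [h2, ← h5] at h4
  have h6 : 0 < L.relIndex X := Nat.pos_of_ne_zero Subgroup.index_ne_zero_of_finite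
  exact Nat.eq_of_mul_eq_mul_left h6 h4

/-- The correspondence of the counts. -/
theorem cnt_bar {p : ℕ} (hp : p.Prime) [Fintype L] [Fintype (ZQ T)] (hθ : IsIrrCharacter L θ)
    (hθp : ¬ p ∣ charDegree θ) {X : Subgroup A} (hX : L ≤ X) :
    cnt p (Subgroup.inclusion hX) θ = cnt p (Subgroup.inclusion (ZQ_le T X)) (lamZ T) := by
  classical
  have := Fintype.ofFinite X
  have := Fintype.ofFinite (T.bar X)
  have hcen : ∀ z : ZQ T, Subgroup.inclusion (ZQ_le T X) z ∈ Subgroup.center (T.bar X) := by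
    intro z
    rw [Subgroup.mem_center_iff]
    intro g
    exact Subtype.ext (Subgroup.mem_center_iff.mp (ZQ_central T z.2) g)
  obtain ⟨n, hn⟩ := exists_nat_degree (isCharacter_of_isIrr hθ)
  rw [H75.charDegree_eq hn] at hθp
  have hdeg : ∀ {χ : X → ℂ} {β : T.bar X → ℂ}, IsIrrCharacter X χ → IsIrrCharacter (T.bar X) β →
      T.Rel X χ β → (p ∣ charDegree χ ↔ p ∣ charDegree β) := by
    intro χ β hχ hβ hR
    obtain ⟨m, hm⟩ := exists_nat_degree (isCharacter_of_isIrr hβ)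
    have h1 : χ 1 = ((m * n : ℕ) : ℂ) := by
      rw [T.rel_one hR, hm, hn]
      push_cast
      rfl
    rw [H75.charDegree_eq h1, H75.charDegree_eq hm]
    constructor
    · intro h
      exact (hp.dvd_mul.mp h).resolve_right hθp
    · intro h
      exact Dvd.dvd.mul_right h _
  have hcenR : ∀ {χ : X → ℂ} {β : T.bar X → ℂ}, IsIrrCharacter (T.bar X) β → T.Rel X χ β →
      classInner (fun z => β (Subgroup.inclusion (ZQ_le T X) z)) (lamZ T) ≠ 0 := by
    intro χ β hβ hR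
    rw [central_iff (Subgroup.inclusion (ZQ_le T X)) hcen hβ (lamZ_irr T)]
    intro z
    obtain ⟨k, rfl⟩ := (eZ T).surjective z
    have h1 := T.rel_central hθ hX hR k 1 (Subgroup.inclusion (ZQ_le T X) (eZ T k)) (by
      rw [Subgroup.coe_one, mul_one]
      rfl)
    rw [h1, lamZ_eZ, mul_comm]
  unfold cnt
  let RR : {χ : IrrCharacter X // ¬ p ∣ charDegree (χ : X → ℂ) ∧
      classInner (fun l => (χ : X → ℂ) (Subgroup.inclusion hX l)) θ ≠ 0} →
    {β : IrrCharacter (T.bar X) // ¬ p ∣ charDegree (β : T.bar X → ℂ) ∧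
      classInner (fun l => (β : T.bar X → ℂ) (Subgroup.inclusion (ZQ_le T X) l)) (lamZ T) ≠ 0} →
    Prop := fun χ β => T.Rel X (χ.1 : X → ℂ) (β.1 : T.bar X → ℂ)
  obtain ⟨f, -⟩ := exists_equiv_of_rel RR (by
    rintro ⟨χ, hd, ho⟩
    obtain ⟨β, hβ, hR⟩ := T.exists_down hθ hX χ.2 ho
    exact ⟨⟨⟨β, hβ⟩, fun h => hd ((hdeg χ.2 hβ hR).mpr h), hcenR hβ hR⟩, hR⟩) (by
    rintro ⟨β, hd, ho⟩
    rw [central_iff (Subgroup.inclusion (ZQ_le T X)) hcen β.2 (lamZ_irr T)] at ho
    obtain ⟨χ, hχ, hR, hov⟩ := T.exists_up hθ hX β.2 (by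
      intro z y hy
      have h1 : y = Subgroup.inclusion (ZQ_le T X) (eZ T z) := Subtype.ext hy
      rw [h1, ho, lamZ_eZ, mul_comm])
    exact ⟨⟨⟨χ, hχ⟩, fun h => hd ((hdeg hχ β.2 hR).mp h), hov⟩, hR⟩) (by
    intro a b b' h1 h2
    exact Subtype.ext (Subtype.ext (T.rel_right_unique hθ hX h1 h2))) (by
    intro a a' b h1 h2
    exact Subtype.ext (Subtype.ext (T.rel_left_unique h1 h2)))
  exact Nat.card_congr f

end Lin

end Cfsg.Agent.H76.Twc
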