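import Cfsg.Agent.H76.Twg5

/-!
# Reductions: the p'-case
-/

set_option autoImplicit false
set_option linter.unusedSectionVars false
set_option linter.unusedFintypeInType false

namespace Cfsg.Agent.H76.Twc

open scoped ComplexConjugate Pointwise
open Cfsg Cfsg.Agent.CharBase Cfsg.Agent.Char

universe u v w x

theorem cnt_change (p : ℕ) {G : Type u} [Group G] {L : Type v} [Group L] [Fintype L]
    {L2 : Type w} [Group L2] [Fintype L2] (e : L ≃* L2) {j : L →* G} {j2 : L2 →* G}
    (h : ∀ l, j2 (e l) = j l) {ν : L → ℂ} {ν2 : L2 → ℂ} (hν : ∀ l, ν2 (e l) = ν l) :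
    cnt p j ν = cnt p j2 ν2 := by
  unfold cnt
  refine Nat.card_congr (Equiv.subtypeEquivRight fun χ => ?_)
  have h1 := classInner_comp_equiv e (fun l => (χ : G → ℂ) (j2 l)) ν2
  have h2 : (fun l => (χ : G → ℂ) (j2 (e l))) = fun l => (χ : G → ℂ) (j l) := by
    funext l
    rw [h]
  have h3 : (fun l => ν2 (e l)) = ν := funext hν
  rw [h2, h3] at h1
  rw [h1]

theorem final_red {G : Type u} [Group G] [Finite G] {p : ℕ} (hp : p.Prime) {L' : Type u}
    [Group L'] [Fintype L'] {j : L' →* G} (hj : Function.Injective j) (hnz : ∀ x : G, Nz j x)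
    {ν : L' → ℂ} (hν : IsIrrCharacter L' ν) (hνp : ¬ p ∣ charDegree ν) (hfx : ∀ x : G, Fx j ν x)
    {S : Subgroup G} (hS : IsPGroup p S) (hSi : ¬ p ∣ S.index) (K : Subgroup G) [hK : K.Normal]
    (hLK : j.range ≤ K) (hi : ¬ p ∣ j.range.relIndex K) (hM : (K ⊔ S).Normal)
    {N' : Type u} [Group N'] [Finite N'] (ι : N' →* G) (hι : Function.Injective ι)
    (hr : ι.range = NS (j.range ⊔ S)) (jN : L' →* N') (hjN : ∀ l, ι (jN l) = j l) :
    cnt p j ν = cnt p jN ν := by
  classical
  have hn := range_normal hnz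
  have := Fintype.ofFinite j.range
  have hθ := fR_irr hj hν
  have hinv : ∀ a : G, cj j.range a (fR hj ν) = fR hj ν := fun a =>
    (mem_inertia _).mp ((fx_iff hj a).mp (hfx a))
  have hθ1 : fR hj ν 1 = ν 1 := by
    change ν ((eR hj).symm 1) = ν 1
    rw [map_one]
  have hθp : ¬ p ∣ charDegree (fR hj ν) := by
    unfold charDegree at hνp ⊢
    rw [hθ1]
    exact hνp
  obtain ⟨H, _, _, ⟨T⟩⟩ := Trip.exists_lin j.range hθ hinv
  have := Fintype.ofFinite (ZQ T)
  have hLX : j.range ≤ NS (j.range ⊔ S) := le_sup_left.trans Subgroup.le_normalizer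
  have b1 := cnt_bar T hp hθ hθp (le_top : j.range ≤ ⊤)
  have b2 := cnt_bar T hp hθ hθp hLX
  -- the left side
  have a1 : cnt p j ν = cnt p (Subgroup.inclusion (le_top : j.range ≤ ⊤)) (fR hj ν) := by
    rw [cnt_congr p Subgroup.topEquiv.symm (j := j)
      (j' := (Subgroup.inclusion (le_top : j.range ≤ ⊤)).comp (eR hj).toMonoidHom)
      (fun k => rfl)]
    exact cnt_change p (eR hj) (fun _ => rfl) (fun l => by
      change ν ((eR hj).symm (eR hj l)) = ν l
      rw [MulEquiv.symm_apply_apply])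
  let eN : N' ≃* NS (j.range ⊔ S) :=
    (MonoidHom.ofInjective hι).trans (MulEquiv.subgroupCongr hr)
  have heN : ∀ x, ((eN x : NS (j.range ⊔ S)) : G) = ι x := fun x => rfl
  have a2 : cnt p jN ν = cnt p (Subgroup.inclusion hLX) (fR hj ν) := by
    rw [cnt_congr p eN (j := jN)
      (j' := (Subgroup.inclusion hLX).comp (eR hj).toMonoidHom)
      (fun k => Subtype.ext ((heN _).trans (hjN k)))]
    exact cnt_change p (eR hj) (fun _ => rfl) (fun l => by
      change ν ((eR hj).symm (eR hj l)) = ν l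
      rw [MulEquiv.symm_apply_apply])
  rw [a1, a2, b1, b2]
  -- group theory in `Q`
  have hbn : ∀ X : Subgroup G, X.Normal → (T.bar X).Normal := by
    intro X hX
    have h1 : (T.up X).Normal := hX.comap T.p
    exact h1.map _ (QuotientGroup.mk'_surjective _)
  have hKq := hbn K hK
  have hcen := ZQ_central T
  obtain ⟨K0, hK0n, hK0K, hK0p, hK0⟩ := exists_npc hp (T.bar K) (ZQ T) (ZQ_le T K) hcen
    (by rw [relIndex_bar T hLK]; exact hi)
  have := Fact.mk hp
  have hrel : ∃ a, (ZQ T).relIndex (T.bar (j.range ⊔ S)) = p ^ a := by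
    rw [relIndex_bar T le_sup_left, sup_comm, Subgroup.relIndex_sup_right]
    obtain ⟨n, hn⟩ := IsPGroup.iff_card.mp hS
    have h1 : j.range.relIndex S ∣ p ^ n := hn ▸ Subgroup.relIndex_dvd_card _ _
    obtain ⟨a, -, ha⟩ := (Nat.dvd_prime_pow hp).mp h1
    exact ⟨a, ha⟩
  have hPi : ¬ p ∣ (T.bar (j.range ⊔ S)).index := by
    rw [index_bar T le_sup_left]
    exact fun hd => hSi (hd.trans (Subgroup.index_dvd_of_le le_sup_right))
  obtain ⟨Sq, hSq, hSqi, hSqP, hPe, hSqm, hNS⟩ := sylow_part hp (T.bar (j.range ⊔ S)) (ZQ T)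
    (ZQ_le T _) hcen hrel hPi
  have hZM : ZQ T ≤ K0 ⊔ Sq := by
    intro z hz
    obtain ⟨a, b, hab, ⟨k, hk⟩, hb⟩ := exists_zpow_decomp hp z
    rw [hab]
    refine Subgroup.mul_mem _ ?_ ?_
    · exact (le_sup_right : Sq ≤ K0 ⊔ Sq) (hSqm _ (ZQ_le T _ ((ZQ T).zpow_mem hz a)) k hk)
    · exact (le_sup_left : K0 ≤ K0 ⊔ Sq) (hK0 _ (ZQ_le T _ ((ZQ T).zpow_mem hz b)) hb)
  have hKM : T.bar K ≤ K0 ⊔ Sq := by
    intro z hz
    obtain ⟨a, b, hab, ⟨k, hk⟩, hb⟩ := exists_zpow_decomp hp z
    rw [hab]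
    refine Subgroup.mul_mem _ ?_ ?_
    · -- a p-element of `K` lies in `Z`
      apply hZM
      have hZKn : ((ZQ T).subgroupOf (T.bar K)).Normal := by
        apply normal_of_central
        intro y hy
        rw [Subgroup.mem_center_iff]
        intro g
        exact Subtype.ext (Subgroup.mem_center_iff.mp (hcen hy) g)
      have h1 : (⟨z ^ a, (T.bar K).zpow_mem hz a⟩ : T.bar K) ∈ (ZQ T).subgroupOf (T.bar K) :=
        mem_of_index_not_dvd hp _ (by
          have := relIndex_bar T hLK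
          change ¬ p ∣ (ZQ T).relIndex (T.bar K)
          rw [this]
          exact hi) (k := k) (Subtype.ext hk)
      exact h1
    · exact (le_sup_left : K0 ≤ K0 ⊔ Sq) (hK0 _ ((T.bar K).zpow_mem hz b) hb)
  have hPM : T.bar (j.range ⊔ S) ≤ K0 ⊔ Sq := by
    rw [hPe]
    exact sup_le hZM le_sup_right
  have hMe : K0 ⊔ Sq = T.bar (K ⊔ S) := by
    apply le_antisymm
    · refine sup_le (hK0K.trans (T.bar_mono le_sup_left)) (hSqP.trans (T.bar_mono ?_))
      exact sup_le (hLK.trans le_sup_left) le_sup_right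
    · have h1 : T.bar (K ⊔ S) ≤ T.bar K ⊔ T.bar (j.range ⊔ S) := by
        unfold Trip.Lin.bar Trip.Lin.up
        rw [← Subgroup.map_sup]
        apply Subgroup.map_mono
        intro x hx
        have h2 : T.p x ∈ (K : Set G) * (S : Set G) := by
          rw [← Subgroup.normal_mul]
          exact hx
        obtain ⟨k, hk, s, hs, hks⟩ := Set.mem_mul.mp h2
        obtain ⟨y, hy⟩ := T.surj k
        have h3 : y⁻¹ * x ∈ Subgroup.comap T.p (j.range ⊔ S) := by
          rw [Subgroup.mem_comap, map_mul, map_inv, hy, ← hks, inv_mul_cancel_left]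
          exact (le_sup_right : S ≤ j.range ⊔ S) hs
        have h4 : x = y * (y⁻¹ * x) := by group
        rw [h4]
        refine Subgroup.mul_mem _ ?_ ?_
        · refine (le_sup_left : Subgroup.comap T.p K ≤ _) ?_
          rw [Subgroup.mem_comap, hy]
          exact hk
        · exact (le_sup_right : Subgroup.comap T.p (j.range ⊔ S) ≤ _) h3
      exact h1.trans (sup_le hKM hPM)
  have hMn : (K0 ⊔ Sq).Normal := hMe ▸ hbn _ hM
  have hZN : ZQ T ≤ NS Sq := by
    intro z hz
    rw [mem_NS_iff]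
    intro x hx
    rw [← Subgroup.mem_center_iff.mp (hcen hz) x, mul_inv_cancel_right]
    exact hx
  have hfin := final_case hp (ZQ T) hcen (lamZ_irr T) K0 hK0p Sq hSq hSqi (K0 ⊔ Sq) rfl hMn hZM hZN
  -- identify the two sides
  have c1 : cnt p (Subgroup.inclusion (ZQ_le T ⊤)) (lamZ T) = cnt p (ZQ T).subtype (lamZ T) := by
    have h3 : T.bar (⊤ : Subgroup G) = ⊤ := by
      unfold Trip.Lin.bar Trip.Lin.up
      rw [Subgroup.comap_top]
      exact Subgroup.map_top_of_surjective _ (QuotientGroup.mk'_surjective _)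
    exact cnt_congr p ((MulEquiv.subgroupCongr h3).trans Subgroup.topEquiv) (fun k => rfl) _
  have h4 : T.bar (NS (j.range ⊔ S)) = NS Sq := by
    rw [hNS]
    ext y
    obtain ⟨h, rfl⟩ := QuotientGroup.mk_surjective y
    rw [T.mem_bar hLX, mem_NS_iff, mem_NS_iff]
    constructor
    · intro h5 x hx
      obtain ⟨x, rfl⟩ := QuotientGroup.mk_surjective x
      rw [T.mem_bar le_sup_left] at hx
      have h6 := h5 _ hx
      rw [← QuotientGroup.mk_inv, ← QuotientGroup.mk_mul, ← QuotientGroup.mk_mul,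
        T.mem_bar le_sup_left, map_mul, map_mul, map_inv]
      exact h6
    · intro h5 x hx
      obtain ⟨x, rfl⟩ := T.surj x
      have h6 := h5 ((x : H) : H ⧸ T.I) ((T.mem_bar le_sup_left).mpr hx)
      rw [← QuotientGroup.mk_inv, ← QuotientGroup.mk_mul, ← QuotientGroup.mk_mul,
        T.mem_bar le_sup_left, map_mul, map_mul, map_inv] at h6
      exact h6
  have c2 : cnt p (Subgroup.inclusion (ZQ_le T (NS (j.range ⊔ S)))) (lamZ T) =
      cnt p (Subgroup.inclusion hZN) (lamZ T) :=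
    cnt_congr p (MulEquiv.subgroupCongr h4) (fun k => rfl) _
  rw [c1, c2]
  exact hfin

end Cfsg.Agent.H76.Twc
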