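import Cfsg.Agent.H76.Twg6

/-!
# The main induction
-/

set_option autoImplicit false
set_option linter.unusedSectionVars false
set_option linter.unusedFintypeInType false

namespace Cfsg.Agent.H76.Twc

open scoped ComplexConjugate Pointwise
open Cfsg Cfsg.Agent.CharBase Cfsg.Agent.Char

universe u v w x

/-- The next normal subgroup in a `p`-solvable group. -/
theorem exists_next {G : Type u} [Group G] {p : ℕ} (hp : p.Prime) (hG : IsPSolvable p G)
    (L : Subgroup G) (hLn : L.Normal) (hL : L ≠ ⊤) :
    ∃ K : Subgroup G, K.Normal ∧ L ≤ K ∧ ¬ K ≤ L ∧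
      ((∃ m, L.relIndex K = p ^ m) ∨ ¬ p ∣ L.relIndex K) := by
  obtain ⟨n, A, h0, hlast, hmono, hnorm, hfac⟩ := hG
  by_contra hcon
  push Not at hcon
  have key : ∀ i : Fin (n + 1), A i ≤ L := by
    intro i
    induction i using Fin.induction with
    | zero => rw [h0]; exact bot_le
    | succ i ih =>
      by_contra hi
      have hn1 := hnorm i.succ
      have h1 := hcon (A i.succ ⊔ L) inferInstance le_sup_right (fun h => hi (le_sup_left.trans h))
      rw [Subgroup.relIndex_sup_right] at h1
      have hd : L.relIndex (A i.succ) ∣ (A i.castSucc).relIndex (A i.succ) :=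
        Subgroup.relIndex_dvd_of_le_left _ ih
      rcases hfac i with ⟨m, hm⟩ | hc
      · rw [hm] at hd
        obtain ⟨k, -, hk⟩ := (Nat.dvd_prime_pow hp).mp hd
        exact h1.1 k hk
      · have h2 := h1.2.trans hd
        have h3 := Nat.Coprime.coprime_dvd_left h2 hc
        rw [Nat.coprime_self] at h3
        exact hp.one_lt.ne' h3
  have := key (Fin.last n)
  rw [hlast, top_le_iff] at this
  exact hL this

/-- The degree of a character divides those of the characters over it. -/
theorem degree_dvd_over {X : Type u} [Group X] [Finite X] {K : Type v} [Group K] [Fintype K]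
    {j : K →* X} (hj : Function.Injective j) (hnz : ∀ x : X, Nz j x) {a : K → ℂ}
    (ha : IsIrrCharacter K a) {χ : X → ℂ}
    (hχ : IsIrrCharacter X χ) (h : classInner (fun k => χ (j k)) a ≠ 0) :
    charDegree a ∣ charDegree χ := by
  classical
  have hn := range_normal hnz
  have := Fintype.ofFinite X
  have := Fintype.ofFinite j.range
  rw [← fR_inner hj] at h
  have hcd := clifford_degree j.range hχ (fR_irr hj ha) h
  obtain ⟨d, hd⟩ := exists_nat_degree (isCharacter_of_isIrr hχ)
  obtain ⟨n, hn'⟩ := exists_nat_degree (isCharacter_of_isIrr (fR_irr hj ha))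
  obtain ⟨c, hc⟩ := classInner_natCast (isCharacter_restrict (isCharacter_of_isIrr hχ) j.range)
    (isCharacter_of_isIrr (fR_irr hj ha))
  rw [hc, hd, hn'] at hcd
  have hcd' : d = c * ((inertia j.range (fR hj a)).index * n) := by exact_mod_cast hcd
  have ha1 : a 1 = (n : ℂ) := by
    rw [← hn']
    change a 1 = a ((eR hj).symm 1)
    rw [map_one]
  rw [H75.charDegree_eq hd, H75.charDegree_eq ha1, hcd']
  exact Dvd.dvd.mul_left (dvd_mul_left _ _) _

theorem cnt_eq_zero {X : Type u} [Group X] [Finite X] {K : Type v} [Group K] [Fintype K] (p : ℕ)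
    {j : K →* X} (hj : Function.Injective j) (hnz : ∀ x : X, Nz j x) {a : K → ℂ}
    (ha : IsIrrCharacter K a) (hpa : p ∣ charDegree a) : cnt p j a = 0 := by
  unfold cnt
  rw [Nat.card_eq_zero]
  left
  exact ⟨fun χ => χ.2.1 (hpa.trans (degree_dvd_over hj hnz ha χ.1.2 χ.2.2))⟩

/-- Restricting the normalizer to a subgroup. -/
theorem range_step {G : Type u} [Group G] [Finite G] {L : Type v} [Group L] {j : L →* G}
    {T : Type w} [Group T] [Finite T] (f : T →* G) (hf : Function.Injective f) {jT : L →* T}
    (hjT : ∀ l, f (jT l) = j l) {S : Subgroup G} (hS : S ≤ f.range)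
    {N' : Type*} [Group N'] (ι' : N' →* T)
    (hr : (f.comp ι').range = NS (j.range ⊔ S) ⊓ f.range) :
    ι'.range = NS (jT.range ⊔ S.comap f) := by
  have e1 : (jT.range ⊔ S.comap f).map f = j.range ⊔ S := by
    rw [Subgroup.map_sup, Subgroup.map_comap_eq, inf_eq_right.mpr hS]
    congr 1
    ext x
    constructor
    · rintro ⟨_, ⟨l, rfl⟩, rfl⟩
      exact ⟨l, (hjT l).symm⟩
    · rintro ⟨l, rfl⟩
      exact ⟨jT l, ⟨l, rfl⟩, hjT l⟩
  have e2 : ∀ y : T, y ∈ NS (jT.range ⊔ S.comap f) ↔ f y ∈ NS (j.range ⊔ S) := by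
    intro y
    rw [mem_NS_iff, mem_NS_iff, ← e1]
    constructor
    · rintro h _ ⟨x, hx, rfl⟩
      rw [← map_inv, ← map_mul, ← map_mul]
      exact ⟨_, h x hx, rfl⟩
    · intro h x hx
      have h1 := h (f x) ⟨x, hx, rfl⟩
      rw [← map_inv, ← map_mul, ← map_mul] at h1
      exact (Subgroup.mem_map_iff_mem hf).mp h1
  ext y
  rw [e2]
  constructor
  · rintro ⟨n, rfl⟩
    have : f (ι' n) ∈ (f.comp ι').range := ⟨n, rfl⟩
    rw [hr] at this
    exact this.1
  · intro h
    have : f y ∈ (f.comp ι').range := by
      rw [hr]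
      exact ⟨h, y, rfl⟩
    obtain ⟨n, hn⟩ := this
    exact ⟨n, hf hn⟩

theorem range_index {G : Type u} [Group G] [Finite G] {L : Type v} [Group L] {j : L →* G}
    {T : Type w} [Group T] [Finite T] (f : T →* G) (hf : Function.Injective f) {jT : L →* T}
    (hjT : ∀ l, f (jT l) = j l) (hne : f.range ≠ ⊤) : jT.range.index < j.range.index := by
  have e1 : jT.range.map f = j.range := by
    ext x
    constructor
    · rintro ⟨_, ⟨l, rfl⟩, rfl⟩
      exact ⟨l, (hjT l).symm⟩
    · rintro ⟨l, rfl⟩
      exact ⟨jT l, ⟨l, rfl⟩, hjT l⟩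
  rw [← e1, Subgroup.index_map_of_injective _ hf]
  have h1 : 0 < jT.range.index := Nat.pos_of_ne_zero Subgroup.index_ne_zero_of_finite
  have h2 : 0 < f.range.index := Nat.pos_of_ne_zero Subgroup.index_ne_zero_of_finite
  have h3 : f.range.index ≠ 1 := fun h => hne (Subgroup.index_eq_one.mp h)
  have h4 : 1 < f.range.index := by omega
  exact lt_mul_of_one_lt_right h1 h4

theorem NS_sup_mono {G : Type u} [Group G] [Finite G] {K P : Subgroup G} (hK : K.Normal) :
    NS P ≤ NS (K ⊔ P) := by
  intro n hn
  rw [mem_NS_iff] at hn ⊢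
  intro x hx
  have h1 : x ∈ (K : Set G) * (P : Set G) := by
    rw [← Subgroup.normal_mul]
    exact hx
  obtain ⟨k, hk, s, hs, rfl⟩ := Set.mem_mul.mp h1
  have h2 : n * (k * s) * n⁻¹ = (n * k * n⁻¹) * (n * s * n⁻¹) := by group
  rw [h2]
  exact Subgroup.mul_mem _ ((le_sup_left : K ≤ K ⊔ P) (hK.conj_mem k hk n))
    ((le_sup_right : P ≤ K ⊔ P) (hn s hs))

/-- **The main induction.** -/
theorem main {p : ℕ} (hp : p.Prime) : ∀ (n : ℕ) (G : Type u) [Group G] [Finite G]
    (_ : IsPSolvable p G) (L : Type u) [Group L] [Fintype L] (j : L →* G)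
    (_ : Function.Injective j) (_ : ∀ x : G, Nz j x) (ν : L → ℂ) (_ : IsIrrCharacter L ν)
    (S : Subgroup G) (_ : IsPGroup p S) (_ : ¬ p ∣ S.index) (_ : ∀ s ∈ S, Fx j ν s)
    (N' : Type u) [Group N'] [Finite N'] (ι : N' →* G) (_ : Function.Injective ι)
    (_ : ι.range = NS (j.range ⊔ S)) (jN : L →* N') (_ : ∀ l, ι (jN l) = j l)
    (_ : j.range.index = n), cnt p j ν = cnt p jN ν := by
  intro n
  induction n using Nat.strong_induction_on with
  | _ n IH =>
  intro G _ _ hG L _ _ j hj hnz ν hν S hS hSi hfxS N' _ _ ι hι hr jN hjN hn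
  classical
  have := Fact.mk hp
  have hLn := range_normal hnz
  have hcomp : ι.comp jN = j := MonoidHom.ext hjN
  have hjNi : Function.Injective jN := by
    intro a b hab
    apply hj
    rw [← hjN, ← hjN, hab]
  have hnzN : ∀ x : N', Nz jN x := by
    intro x
    apply Nz.of_map (f := ι) hι
    rw [hcomp]
    exact hnz _
  by_cases hpν : p ∣ charDegree ν
  · rw [cnt_eq_zero p hj hnz hν hpν, cnt_eq_zero p hjNi hnzN hν hpν]
  by_cases hfx : ∀ x : G, Fx j ν x
  · by_cases hPn : (j.range ⊔ S).Normal
    · -- trivial case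
      have hs : Function.Surjective ι := by
        rw [← MonoidHom.range_eq_top, hr]
        exact Subgroup.normalizer_eq_top_iff.mpr hPn
      exact (cnt_congr p (MulEquiv.ofBijective ι ⟨hι, hs⟩) (j := jN) (j' := j) hjN ν).symm
    · obtain ⟨K, hKn, hLK, hKL, hidx⟩ := exists_next hp hG j.range hLn (by
        intro h
        apply hPn
        rw [h, top_sup_eq]
        infer_instance)
      have hPM : j.range ⊔ S ≤ K ⊔ S := sup_le_sup_right hLK S
      by_cases hMn : (K ⊔ S).Normal
      · -- the p'-case
        rcases hidx with ⟨m, hm⟩ | hidx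
        · exfalso
          apply hPn
          have hKS : K ⊔ S ≤ j.range ⊔ S := by
            rw [← Subgroup.relIndex_eq_one]
            have h1 : j.range.relIndex (j.range ⊔ S) * (j.range ⊔ S).relIndex (K ⊔ S) =
                j.range.relIndex (K ⊔ S) := Subgroup.relIndex_mul_relIndex _ _ _ le_sup_left hPM
            have h2 : j.range.relIndex K * K.relIndex (K ⊔ S) = j.range.relIndex (K ⊔ S) :=
              Subgroup.relIndex_mul_relIndex _ _ _ hLK le_sup_left
            rw [sup_comm K S, Subgroup.relIndex_sup_right, sup_comm S K, hm] at h2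
            obtain ⟨a, ha⟩ := IsPGroup.iff_card.mp hS
            have h3 : K.relIndex S ∣ p ^ a := ha ▸ Subgroup.relIndex_dvd_card _ _
            obtain ⟨b, -, hb⟩ := (Nat.dvd_prime_pow hp).mp h3
            rw [hb, ← pow_add] at h2
            rw [← h2] at h1
            have h4 : (j.range ⊔ S).relIndex (K ⊔ S) ∣ p ^ (m + b) := Dvd.intro_left _ h1
            obtain ⟨c, -, hc⟩ := (Nat.dvd_prime_pow hp).mp h4
            have h5 : (j.range ⊔ S).relIndex (K ⊔ S) ∣ S.index :=
              (Subgroup.relIndex_dvd_index_of_le hPM).trans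
                (Subgroup.index_dvd_of_le le_sup_right)
            rw [hc] at h5 ⊢
            rcases Nat.eq_zero_or_pos c with h6 | h6
            · rw [h6, pow_zero]
            · exact absurd ((dvd_pow_self p h6.ne').trans h5) hSi
          rw [le_antisymm hPM hKS]
          exact hMn
        · exact final_red hp hj hnz hν hpν hfx hS hSi K hLK hidx hMn ι hι hr jN hjN
      · -- through `NS (K ⊔ S)`
        have hKN1 : K ≤ NS (K ⊔ S) := le_sup_left.trans Subgroup.le_normalizer
        have hSN1 : S ≤ NS (K ⊔ S) := le_sup_right.trans Subgroup.le_normalizer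
        let i : L →* K := j.codRestrict K fun l => hLK ⟨l, rfl⟩
        have hi : Function.Injective i := by
          intro a b hab
          exact hj (congrArg Subtype.val hab)
        have hi' : K.subtype.comp i = j := MonoidHom.ext fun _ => rfl
        have := Fintype.ofFinite K
        have hnzK : ∀ x : G, Nz K.subtype x := by
          intro x
          refine ⟨fun k => ⟨⟨x * k * x⁻¹, hKn.conj_mem _ k.2 x⟩, rfl⟩, fun k =>
            ⟨⟨x⁻¹ * k * x, ?_⟩, rfl⟩⟩
          have := hKn.conj_mem _ k.2 x⁻¹
          rwa [inv_inv] at this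
        have hne : (NS (K ⊔ S)).subtype.range ≠ ⊤ := by
          rw [Subgroup.range_subtype]
          intro h
          exact hMn (Subgroup.normalizer_eq_top_iff.mp h)
        have hKi : K.index < j.range.index := by
          rw [← Subgroup.relIndex_mul_index hLK]
          have h1 : 0 < K.index := Nat.pos_of_ne_zero Subgroup.index_ne_zero_of_finite
          have h2 : j.range.relIndex K ≠ 1 := fun h => hKL (Subgroup.relIndex_eq_one.mp h)
          have h3 : 0 < j.range.relIndex K := 
            Nat.pos_of_ne_zero (Subgroup.index_ne_zero_of_finite (H := j.range.subgroupOf K))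
          have h4 : 1 < j.range.relIndex K := by omega
          exact lt_mul_of_one_lt_left h1 h4
        have h1 := stage (jK := K.subtype) hp K.subtype_injective hnzK i hi
          (by rw [hi']; exact hnz) hν (by rw [hi']; exact hfx) hS hSi (NS (K ⊔ S))
          (NS_sup_mono hKn) (Subgroup.inclusion hKN1) (fun _ => rfl) (fun η hη hηS =>
            IH K.index (hn ▸ hKi) G hG K K.subtype K.subtype_injective hnzK η hη S hS hSi hηS
              (NS (K ⊔ S)) (NS (K ⊔ S)).subtype (NS (K ⊔ S)).subtype_injective
              (by rw [Subgroup.range_subtype, Subgroup.range_subtype]) (Subgroup.inclusion hKN1)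
              (fun _ => rfl) (by rw [Subgroup.range_subtype]))
        rw [hi'] at h1
        rw [h1]
        -- apply induction in `NS (K ⊔ S)`
        have hle : NS (j.range ⊔ S) ≤ NS (K ⊔ S) := by
          have : K ⊔ S = K ⊔ (j.range ⊔ S) := by
            rw [← sup_assoc, sup_eq_left.mpr hLK]
          rw [this]
          exact NS_sup_mono hKn
        let j1 : L →* NS (K ⊔ S) := (Subgroup.inclusion hKN1).comp i
        have hj1 : ∀ l, (NS (K ⊔ S)).subtype (j1 l) = j l := fun _ => rfl
        have hι1 : ∀ x, ι x ∈ NS (K ⊔ S) := fun x => hle (hr ▸ ⟨x, rfl⟩)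
        let ι1 : N' →* NS (K ⊔ S) := ι.codRestrict _ hι1
        have hι1' : (NS (K ⊔ S)).subtype.comp ι1 = ι := MonoidHom.ext fun _ => rfl
        have hsr : (NS (K ⊔ S)).subtype.range = NS (K ⊔ S) := Subgroup.range_subtype _
        refine IH j1.range.index (hn ▸ range_index _ (NS (K ⊔ S)).subtype_injective hj1 hne)
          (NS (K ⊔ S)) (isPSolvable_subgroup _ hG) L j1 ?_ ?_ ν hν (S.comap (NS (K ⊔ S)).subtype)
          (hS.comap_of_injective _ (NS (K ⊔ S)).subtype_injective) ?_ ?_ N' ι1 ?_ ?_ jN ?_ rfl
        · intro a b hab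
          exact hj (congrArg Subtype.val hab)
        · intro x
          apply Nz.of_map (f := (NS (K ⊔ S)).subtype) (NS (K ⊔ S)).subtype_injective
          exact hnz x
        · intro hd
          exact hSi (hd.trans (Subgroup.relIndex_dvd_index_of_le hSN1))
        · intro s hs k k' hk
          exact hfxS s hs k k' (congrArg Subtype.val hk)
        · intro a b hab
          exact hι (congrArg Subtype.val hab)
        · apply range_step (NS (K ⊔ S)).subtype (NS (K ⊔ S)).subtype_injective hj1
            (by rw [hsr]; exact hSN1)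
          rw [hι1', hsr, hr, inf_eq_left.mpr hle]
        · intro l
          exact Subtype.ext (hjN l)
  · -- Clifford
    push Not at hfx
    obtain ⟨x0, hx0⟩ := hfx
    obtain ⟨T, hT⟩ := exists_inertia hj hnz ν
    have hLT : j.range ≤ T := by
      rintro _ ⟨l, rfl⟩
      exact (hT _).mpr (Fx.coe hj (isClassFunction_of_isCharacter (isCharacter_of_isIrr hν)) l)
    have hST : S ≤ T := fun s hs => (hT s).mpr (hfxS s hs)
    have hTi : ¬ p ∣ T.index := fun hd => hSi (hd.trans (Subgroup.index_dvd_of_le hST))
    have hsr : T.subtype.range = T := Subgroup.range_subtype _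
    have hne : T.subtype.range ≠ ⊤ := by
      rw [hsr]
      intro h
      exact hx0 ((hT x0).mp (h ▸ Subgroup.mem_top x0))
    let jT : L →* T := j.codRestrict T fun l => hLT ⟨l, rfl⟩
    have hjT : ∀ l, T.subtype (jT l) = j l := fun _ => rfl
    rw [cnt_clifford hp hj hnz hν hT hTi (jT := jT) hjT]
    -- the normalizer side
    have hT' : ∀ x : N', x ∈ T.comap ι ↔ Fx jN ν x := by
      intro x
      rw [Subgroup.mem_comap, hT]
      constructor
      · intro h k k' hk
        refine h k k' ?_
        rw [← hjN, ← hjN, hk, map_mul, map_mul, map_inv]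
      · intro h k k' hk
        refine h k k' (hι ?_)
        rw [hjN, map_mul, map_mul, map_inv, hjN]
        exact hk
    have hT'i : ¬ p ∣ (T.comap ι).index := by
      intro hd
      have h1 : (T.comap ι).index ∣ (S.comap ι).index :=
        Subgroup.index_dvd_of_le (Subgroup.comap_mono hST)
      rw [Subgroup.index_comap S ι] at h1
      have hSr : S ≤ ι.range := by
        rw [hr]
        exact le_sup_right.trans Subgroup.le_normalizer
      exact hSi ((hd.trans h1).trans (Subgroup.relIndex_dvd_index_of_le hSr))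
    let jT' : L →* (T.comap ι) := jN.codRestrict _ fun l => by
      rw [Subgroup.mem_comap, hjN]
      exact hLT ⟨l, rfl⟩
    rw [cnt_clifford hp hjNi hnzN hν hT' hT'i (jT := jT') (fun _ => rfl)]
    let ι' : (T.comap ι) →* T := (ι.comp (T.comap ι).subtype).codRestrict T fun x => x.2
    refine IH jT.range.index (hn ▸ range_index _ T.subtype_injective hjT hne)
      T (isPSolvable_subgroup _ hG) L jT ?_ ?_ ν hν (S.comap T.subtype)
      (hS.comap_of_injective _ T.subtype_injective) ?_ ?_ (T.comap ι) ι' ?_ ?_ jT' ?_ rfl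
    · intro a b hab
      exact hj (congrArg Subtype.val hab)
    · intro x
      apply Nz.of_map (f := T.subtype) T.subtype_injective
      exact hnz x
    · intro hd
      exact hSi (hd.trans (Subgroup.relIndex_dvd_index_of_le hST))
    · intro s hs k k' hk
      exact hfxS s hs k k' (congrArg Subtype.val hk)
    · intro a b hab
      exact Subtype.ext (hι (congrArg Subtype.val hab))
    · apply range_step T.subtype T.subtype_injective hjT (by rw [hsr]; exact hST)
      rw [← hr, hsr]
      ext y
      constructor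
      · rintro ⟨x, rfl⟩
        exact ⟨⟨x.1, rfl⟩, x.2⟩
      · rintro ⟨⟨x, rfl⟩, hy⟩
        exact ⟨⟨x, hy⟩, rfl⟩
    · intro l
      exact Subtype.ext (hjN l)

end Cfsg.Agent.H76.Twc
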